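import Cfsg.Agent.Lib.H8.BCGLO
import Cfsg.Agent.Lib.H7.Crit

/-!
# Adjoining automorphisms of one subgroup to the inner fusion system
-/

set_option autoImplicit false
set_option linter.unusedSectionVars false

namespace Cfsg.Agent.H9.Bic

open Cfsg Cfsg.FusionSystem Cfsg.Agent.H7 Cfsg.Agent.H8

variable {Ω : Type*} [Group Ω] {S E P Q : Subgroup Ω} {p : ℕ} {f g : Ω → Ω}

/-- All injective homomorphisms between subgroups of `S`. -/
theorem isFusionPred_univ (S : Subgroup Ω) : IsFusionPred S (fun P f => P ≤ S ∧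
    (∀ x ∈ P, f x ∈ S) ∧ IsHomOn P f ∧ ∀ x ∈ P, ∀ y ∈ P, f x = f y → x = y) where
  le h := h.1
  mem h := h.2.1
  hom h := h.2.2.1
  inj h := h.2.2.2
  congr := fun ⟨h1, h2, h3, h4⟩ e => ⟨h1, fun x hx => e x hx ▸ h2 x hx, h3.congr e,
    fun x hx y hy h => h4 x hx y hy (by rw [e x hx, e y hy, h])⟩
  conj := fun {P s} hP hs => ⟨hP, fun x hx => S.mul_mem (S.mul_mem hs (hP hx)) (S.inv_mem hs),
    isHomOn_conj P s, fun x _ y _ h => by simpa using h⟩
  comp := fun ⟨h1, _, h3, h4⟩ ⟨_, k2, k3, k4⟩ hm => ⟨h1, fun x hx => k2 _ (hm x hx), k3.comp h3 hm,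
    fun x hx y hy h => h4 x hx y hy (k4 _ (hm x hx) _ (hm y hy) h)⟩
  inv := fun {P f} ⟨h1, h2, h3, h4⟩ => by
    obtain ⟨s, hs⟩ := GrpIso.exists_of_inj h3 h4
    exact ⟨s, ⟨img_le_iff.2 h2, fun y hy => h1 (hs.mem' y hy), hs.hom',
      fun x hx y hy h => hs.symm.inj hx hy h⟩, hs.left⟩

/-- The generators: inner automorphisms of `S` and the members of `Δ`. -/
def Gen (S E : Subgroup Ω) (Δ : Subgroup (MulAut E)) (Q : Subgroup Ω) (g : Ω → Ω) : Prop :=
  (Q = S ∧ ∃ s ∈ S, ∀ x ∈ S, g x = s * x * s⁻¹) ∨ (Q = E ∧ ∃ δ ∈ Δ, ∀ x ∈ E, g x = equivFun δ x)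

theorem exists_gen (hE : E ≤ S) (Δ : Subgroup (MulAut E)) :
    ∃ F : FusionSystem S, ∀ P f, F.IsMor P f ↔ GenChain S (Gen S E Δ) P f := by
  obtain ⟨U, hU⟩ := exists_of_isFusionPred (isFusionPred_univ S)
  have hB : ∀ Q g, Gen S E Δ Q g → U.IsMor Q g := by
    rintro Q g (⟨rfl, s, hs, e⟩ | ⟨rfl, δ, -, e⟩)
    · exact (U.isMor_conj le_rfl hs).congr fun x hx => (e x hx).symm
    · refine IsMor.congr (f := equivFun δ) ((hU _ _).2 ⟨hE, fun x hx => hE (equivFun_mem δ hx),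
        isHomOn_equivFun δ, fun x hx y hy h => ?_⟩) fun x hx => (e x hx).symm
      rw [← equivFun_inv_apply δ hx, h, equivFun_inv_apply δ hy]
  refine exists_of_isFusionPred (U.isFusionPred_genChain le_rfl hB
    (fun Q g h x hx => (hB Q g h).mem hx)
    (fun s hs => GenChain.of_base le_rfl (Or.inl ⟨rfl, s, hs, fun _ _ => rfl⟩) le_rfl) ?_)
  intro Q g h
  have hle : img Q g ≤ S := (hB Q g h).img_le
  rcases h with ⟨rfl, s, hs, e⟩ | ⟨rfl, δ, hδ, e⟩
  · exact ⟨fun x => s⁻¹ * x * s⁻¹⁻¹, GenChain.of_base hle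
      (Or.inl ⟨rfl, s⁻¹, Q.inv_mem hs, fun _ _ => rfl⟩) hle, fun x hx => by rw [e x hx]; group⟩
  · exact ⟨equivFun δ⁻¹, GenChain.of_base hle (Or.inr ⟨rfl, δ⁻¹, Δ.inv_mem hδ, fun _ _ => rfl⟩)
      (img_le_iff.2 fun x hx => by rw [e x hx]; exact equivFun_mem δ hx),
      fun x hx => by rw [e x hx, equivFun_inv_apply δ hx]⟩

variable [Finite S] [Fact p.Prime] {Δ : Subgroup (MulAut E)}

/-- `P` is conjugate to a proper subgroup of `E`. -/
def Small (S E P : Subgroup Ω) : Prop :=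
  (∃ s ∈ S, ∀ x ∈ P, s * x * s⁻¹ ∈ E) ∧ Nat.card P < Nat.card E

theorem conj_surj (hE : E ≤ S) (hP : P ≤ S) (hs : ¬ Small S E P) {s : Ω} (hsS : s ∈ S)
    (h : ∀ x ∈ P, s * x * s⁻¹ ∈ E) : ∀ y ∈ E, s⁻¹ * y * s ∈ P := by
  have : Finite E := finite_of_le hE
  have hc : Nat.card E ≤ Nat.card P := not_lt.1 fun h' => hs ⟨⟨s, hsS, h⟩, h'⟩
  have hi := ((innerFusionSystem S).isMor_conj hP hsS).isIso_of_card_le h hc
  intro y hy
  obtain ⟨x, hx, rfl⟩ := hi.surj y hy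
  simpa [mul_assoc] using hx

theorem chain_cases (hE : E ≤ S) (hΔ : autInducedBy S E ≤ Δ) (hs : ¬ Small S E P)
    (h : GenChain S (Gen S E Δ) P f) :
    (∃ s ∈ S, ∀ x ∈ P, f x = s * x * s⁻¹) ∨ ∃ s ∈ S, ∃ u ∈ S, ∃ δ ∈ Δ,
      (∀ x ∈ P, s * x * s⁻¹ ∈ E) ∧ ∀ x ∈ P, f x = u * equivFun δ (s * x * s⁻¹) * u⁻¹ := by
  have hP := h.le
  have : Finite E := finite_of_le hE
  induction h with
  | id _ e => exact Or.inl ⟨1, S.one_mem, fun x hx => by rw [e x hx]; group⟩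
  | @step f g h Q h1 h2 h3 h4 ih =>
    rcases h2 with ⟨rfl, r, hr, e⟩ | ⟨rfl, ε, hε, e⟩
    · rcases ih with ⟨s, hsS, e'⟩ | ⟨s, hsS, u, hu, δ, hδ, hm, e'⟩
      · exact Or.inl ⟨r * s, Q.mul_mem hr hsS, fun x hx => by
          rw [h4 x hx, e _ (h3 x hx), e' x hx]; group⟩
      · exact Or.inr ⟨s, hsS, r * u, Q.mul_mem hr hu, δ, hδ, hm, fun x hx => by
          rw [h4 x hx, e _ (h3 x hx), e' x hx]; group⟩
    · rcases ih with ⟨s, hsS, e'⟩ | ⟨s, hsS, u, hu, δ, hδ, hm, e'⟩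
      · exact Or.inr ⟨s, hsS, 1, S.one_mem, ε, hε, fun x hx => e' x hx ▸ h3 x hx, fun x hx => by
          rw [h4 x hx, e _ (h3 x hx), e' x hx]; group⟩
      · have hun : u ∈ Subgroup.normalizer (Q : Set Ω) := by
          refine mem_normalizer_of_finite fun y hy => ?_
          have h5 := conj_surj hE hP hs hsS hm _ (equivFun_mem δ⁻¹ hy)
          have h6 := h3 _ h5
          rw [e' _ h5] at h6
          have : s * (s⁻¹ * equivFun δ⁻¹ y * s) * s⁻¹ = equivFun δ⁻¹ y := by group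
          rwa [this, equivFun_apply_inv δ hy] at h6
        refine Or.inr ⟨s, hsS, 1, S.one_mem, ε * conjAut Q hun * δ,
          Δ.mul_mem (Δ.mul_mem hε (hΔ (conjAut_mem_autInducedBy hu hun))) hδ, hm, fun x hx => ?_⟩
        rw [h4 x hx, e _ (h3 x hx), e' x hx, equivFun_mul _ _ (hm x hx),
          equivFun_mul _ _ (equivFun_mem δ (hm x hx)),
          equivFun_conjAut hun (equivFun_mem δ (hm x hx))]
        group

theorem chain_fix {z : Ω} (hzS : ∀ s ∈ S, s * z * s⁻¹ = z)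
    (hzΔ : z ∈ E → ∀ δ ∈ Δ, equivFun δ z = z) (h : GenChain S (Gen S E Δ) P f) (hz : z ∈ P) :
    f z = z := by
  induction h with
  | id _ e => exact e z hz
  | @step f g h Q h1 h2 h3 h4 ih =>
    have h5 := h3 z hz
    rw [h4 z hz]
    rw [ih] at h5 ⊢
    rcases h2 with ⟨rfl, r, hr, e⟩ | ⟨rfl, ε, hε, e⟩
    · rw [e z h5, hzS r hr]
    · rw [e z h5, hzΔ h5 ε hε]

theorem exists_sat_of_aut (hS : IsPGroup p S) (hE : E ≤ S) (Δ : Subgroup (MulAut E))
    (hsyl : SylowIn p (autInducedBy S E) Δ)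
    (hTI : ∀ δ ∈ Δ, δ ∉ autInducedBy S E → ∀ a ∈ S, ∀ ha : a ∈ Subgroup.normalizer (E : Set Ω),
      δ * conjAut E ha * δ⁻¹ ∈ autInducedBy S E → a ∈ E)
    (hne : ¬ Δ ≤ autInducedBy S E) {z : Ω} (hzS : ∀ s ∈ S, s * z * s⁻¹ = z)
    (hzΔ : z ∈ E → ∀ δ ∈ Δ, equivFun δ z = z)
    (hsub : ∀ Q, Q < E → centralizerIn S Q ≤ Q → ∀ α : MulAut Q,
      (z ∈ Q → equivFun α z = z) → (orderOf α).Coprime p → α = 1) :
    ∃ F : FusionSystem S, F.IsSaturated p ∧ F ≠ innerFusionSystem S := by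
  obtain ⟨F, hF⟩ := exists_gen hE Δ
  have : Finite E := finite_of_le hE
  have hEs : ¬ Small S E E := fun h => lt_irrefl _ h.2
  have hΔF : ∀ δ ∈ Δ, F.IsMor E (equivFun δ) := fun δ hδ =>
    (hF _ _).2 (GenChain.of_base hE (Or.inr ⟨rfl, δ, hδ, fun _ _ => rfl⟩) le_rfl)
  have hcases : ∀ {P f}, ¬ Small S E P → F.IsMor P f → _ := fun hs h =>
    chain_cases hE hsyl.le hs ((hF _ _).1 h)
  -- the class is closed under conjugation
  have hconj : ∀ P Q, ¬ Small S E P → F.IsConj P Q → ¬ Small S E Q := by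
    intro P Q hs hc ⟨⟨r, hr, hm⟩, hlt⟩
    obtain ⟨f, hf⟩ := hc.exists_isIso
    rw [← hc.card_eq] at hlt
    rcases hcases hs hf.mor with ⟨s, hsS, e⟩ | ⟨s, hsS, u, hu, δ, hδ, hm', e⟩
    · refine hs ⟨⟨r * s, S.mul_mem hr hsS, fun x hx => ?_⟩, hlt⟩
      have := hm _ (hf.mapsTo x hx)
      rw [e x hx] at this
      simpa [mul_assoc] using this
    · exact hs ⟨⟨s, hsS, hm'⟩, hlt⟩
  -- isomorphisms onto `E`
  have hiso : ∀ P f, F.IsIso P E f → ∃ s ∈ S, ∃ δ ∈ Δ, (∀ x ∈ P, s * x * s⁻¹ ∈ E) ∧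
      ∀ x ∈ P, f x = equivFun δ (s * x * s⁻¹) := by
    intro P f hf
    have hs := hconj _ _ hEs hf.isConj.symm
    rcases hcases hs hf.mor with ⟨s, hsS, e⟩ | ⟨s, hsS, u, hu, δ, hδ, hm, e⟩
    · refine ⟨s, hsS, 1, Δ.one_mem, fun x hx => e x hx ▸ hf.mapsTo x hx, fun x hx => ?_⟩
      rw [equivFun_one (e x hx ▸ hf.mapsTo x hx), e x hx]
    · have hun : u ∈ Subgroup.normalizer (E : Set Ω) := by
        refine mem_normalizer_of_finite fun y hy => ?_
        have h5 := conj_surj hE hf.le_left hs hsS hm _ (equivFun_mem δ⁻¹ hy)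
        have h6 := hf.mapsTo _ h5
        rw [e _ h5] at h6
        have : s * (s⁻¹ * equivFun δ⁻¹ y * s) * s⁻¹ = equivFun δ⁻¹ y := by group
        rwa [this, equivFun_apply_inv δ hy] at h6
      refine ⟨s, hsS, conjAut E hun * δ, Δ.mul_mem (hsyl.le (conjAut_mem_autInducedBy hu hun)) hδ,
        hm, fun x hx => ?_⟩
      rw [e x hx, equivFun_mul _ _ (hm x hx), equivFun_conjAut hun (equivFun_mem δ (hm x hx))]
  have haut : F.autGroup E = Δ := by
    refine le_antisymm (fun α hα => ?_) fun δ hδ =>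
      (mem_autGroup_iff hE).2 (hΔF δ hδ).isIso_equivFun
    obtain ⟨s, hsS, δ, hδ, hm, e⟩ := hiso _ _ (isIso_of_mem_autGroup hE hα)
    have hsn : s ∈ Subgroup.normalizer (E : Set Ω) := mem_normalizer_of_finite hm
    have : α = δ * conjAut E hsn := mulEquiv_ext_equivFun fun x hx => by
      rw [e x hx, equivFun_mul _ _ hx, equivFun_conjAut hsn hx]
    rw [this]
    exact Δ.mul_mem hδ (hsyl.le (conjAut_mem_autInducedBy hsS hsn))
  have hsatE : F.IsFullyAutomized p E ∧ F.IsReceptive E := by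
    refine ⟨isFullyAutomized_iff.2 ⟨hE, haut ▸ hsyl⟩, isReceptive_iff.2 ⟨hE, fun P f hf => ?_⟩⟩
    obtain ⟨s, hsS, δ, hδ, hm, e⟩ := hiso _ _ hf
    have hs := hconj _ _ hEs hf.isConj.symm
    have hsurj := conj_surj hE hf.le_left hs hsS hm
    by_cases hδS : δ ∈ autInducedBy S E
    · obtain ⟨b, hb, -, e'⟩ := mem_autInducedBy_iff'.1 hδS
      refine ⟨fun x => (b * s) * x * (b * s)⁻¹, F.isMor_conj extSub_le (S.mul_mem hb hsS),
        fun x hx => ?_⟩
      rw [e x hx, e' _ (hm x hx)]; group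
    · refine ⟨f, hf.mor.mono fun a ha => ?_, fun _ _ => rfl⟩
      obtain ⟨haS, han, b, hb, e'⟩ := mem_extSub.1 ha
      have hn : s * a * s⁻¹ ∈ Subgroup.normalizer (E : Set Ω) := by
        refine mem_normalizer_of_finite fun y hy => ?_
        have := hm _ (conj_mem_of_mem_normalizer han (hsurj y hy))
        simpa [mul_assoc] using this
      have h1 := hTI δ hδ hδS _ (S.mul_mem (S.mul_mem hsS haS) (S.inv_mem hsS)) hn
        (mem_autInducedBy_iff.2 ⟨b, hb, fun y => ?_⟩)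
      · simpa [mul_assoc] using hsurj _ h1
      · have hy := equivFun_mem δ⁻¹ y.2
        have h2 := e' _ (hsurj _ hy)
        rw [e _ (conj_mem_of_mem_normalizer han (hsurj _ hy)), e _ (hsurj _ hy)] at h2
        have h3 : s * (s⁻¹ * equivFun δ⁻¹ y * s) * s⁻¹ = equivFun δ⁻¹ y := by group
        rw [h3, equivFun_apply_inv δ y.2] at h2
        rw [← h2, ← equivFun_of_mem _ y.2, equivFun_mul _ _ y.2, equivFun_mul _ _ hy,
          equivFun_conjAut hn hy]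
        congr 1; group
  refine ⟨F, isSaturated_of_bcglo hS (ℋ := fun P => ¬ Small S E P) hconj ?_ ?_ ?_, ?_⟩
  · intro P hs hP
    by_cases hin : ∃ s ∈ S, ∀ x ∈ P, s * x * s⁻¹ ∈ E
    · obtain ⟨s, hsS, hm⟩ := hin
      have hc : Nat.card E ≤ Nat.card P := not_lt.1 fun h' => hs ⟨⟨s, hsS, hm⟩, h'⟩
      exact ⟨E, ((F.isMor_conj hP hsS).isIso_of_card_le hm hc).isConj, hsatE⟩
    · have hinn : ∀ R f, F.IsIso R P f → ∃ s ∈ S, ∀ x ∈ R, f x = s * x * s⁻¹ := by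
        intro R f hf
        rcases hcases (hconj _ _ hs hf.isConj.symm) hf.mor with h | ⟨s, hsS, u, hu, δ, hδ, hm, e⟩
        · exact h
        · refine (hin ⟨u⁻¹, S.inv_mem hu, fun y hy => ?_⟩).elim
          obtain ⟨x, hx, rfl⟩ := hf.surj y hy
          rw [e x hx]
          simpa [mul_assoc] using equivFun_mem δ (hm x hx)
      refine ⟨P, F.isConj_refl hP, isFullyAutomized_iff.2 ⟨hP, ?_⟩,
        isReceptive_iff.2 ⟨hP, fun R f hf => ?_⟩⟩
      · have : F.autGroup P = autInducedBy S P := by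
          refine le_antisymm (fun α hα => ?_) (F.autInducedBy_le_autGroup hP le_rfl)
          obtain ⟨s, hsS, e⟩ := hinn _ _ (isIso_of_mem_autGroup hP hα)
          exact mem_autInducedBy_iff.2 ⟨s, hsS, fun x => by
            rw [← e x x.2, equivFun_of_mem _ x.2]⟩
        rw [this]
        exact sylowIn_self (isPGroup_autInducedBy hS P)
      · obtain ⟨s, hsS, e⟩ := hinn _ _ hf
        exact ⟨fun x => s * x * s⁻¹, F.isMor_conj extSub_le hsS, fun x hx => (e x hx).symm⟩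
  · intro P f hf
    have hB : ∀ Q g, Gen S E Δ Q g → F.IsMor Q g := fun Q g h => (hF _ _).2
      (GenChain.of_base (by rcases h with ⟨rfl, -⟩ | ⟨rfl, -⟩; exacts [le_rfl, hE]) h le_rfl)
    refine GenChain.imp (F := F) le_rfl hB (fun f Q g _ h _ => ⟨hB Q g h, ?_⟩) ((hF _ _).1 hf)
    rcases h with ⟨rfl, -⟩ | ⟨rfl, -⟩
    · exact fun h => (not_le.2 h.2) (Subgroup.card_le_of_le hE)
    · exact hEs
  · intro P hP hs
    obtain ⟨⟨s, hsS, hm⟩, hlt⟩ := not_not.1 hs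
    have hi := (F.isMor_conj hP.le hsS).isIso_img
    set Q := img P fun x => s * x * s⁻¹
    have hQE : Q ≤ E := img_le_iff.2 hm
    have hQ : Q < E := lt_of_card_lt hQE (hi.card_eq ▸ hlt)
    have hQS : Q ≤ S := hQE.trans hE
    have hc := (hP.of_isIso hi).centralizerIn_le
    have : Finite (F.autGroup Q) := F.finite_autGroup Q
    have hp : IsPGroup p (F.autGroup Q) := isPGroup_of_forall_coprime fun α hα h =>
      hsub Q hQ hc α (fun hz => chain_fix hzS hzΔ ((hF _ _).1 (isMor_of_mem_autGroup hQS hα)) hz) h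
    refine ⟨Q, hi.isConj, fun h => ?_⟩
    have h1 := lt_normalizerIn hS (hQ.trans_le hE)
    refine h1.not_ge fun a ha => h (mem_autPre.2 ⟨ha.1, ha.2, ?_⟩)
    rw [pCoreIn_eq_self hp]
    exact F.conjAut_mem_autGroup hQS ha.1 ha.2
  · rintro rfl
    exact hne (haut ▸ (innerFusionSystem_autGroup hE).le)

end Cfsg.Agent.H9.Bic
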