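import Cfsg.Agent.Lib.H9.BicA

/-!
# A four-group or quaternion frame gives a saturated non-inner fusion system
-/

set_option autoImplicit false
set_option linter.unusedSectionVars false

namespace Cfsg.Agent.H9.Bic

open Cfsg Cfsg.FusionSystem Cfsg.Agent.H7 Cfsg.Agent.H8

theorem fix_of_sq {Q : Type*} [Group Q] {α : MulAut Q} (ho : (orderOf α).Coprime 2) {q : Q}
    (h : α (α q) = q) : α q = q := by
  obtain ⟨m, hm⟩ := Nat.coprime_two_right.1 ho
  have h1 : ∀ k : ℕ, (α ^ (2 * k)) q = q := by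
    intro k
    induction k with
    | zero => simp
    | succ k ih =>
      rw [show 2 * (k + 1) = 1 + 1 + 2 * k by ring, pow_add, pow_add, pow_one, MulAut.mul_apply,
        MulAut.mul_apply, ih, h]
  have h2 : (α ^ (2 * m + 1)) q = q := by rw [← hm, pow_orderOf_eq_one]; rfl
  rwa [pow_succ', MulAut.mul_apply, h1] at h2

theorem aut_eq_one {Q : Type*} [Group Q] (hQ : IsPGroup 2 Q) (hc : ∀ a b : Q, a * b = b * a)
    {z : Q} (hz : z * z = 1)
    (hinv : ∀ u u' : Q, u * u = 1 → u' * u' = 1 →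
      (u = 1 ∨ u = z) ∨ (u' = 1 ∨ u' = z) ∨ (u * u' = 1 ∨ u * u' = z))
    {α : MulAut Q} (hα : α z = z) (ho : (orderOf α).Coprime 2) : α = 1 := by
  have h1 : ∀ u : Q, u * u = 1 → α u = u := by
    intro u hu
    have hu' : α u * α u = 1 := by rw [← map_mul, hu, map_one]
    rcases hinv u (α u) hu hu' with (rfl | rfl) | (h | h) | (h | h)
    · exact map_one α
    · exact hα
    · rw [h, (map_eq_one_iff α α.injective).1 h]
    · rw [h, α.injective (h.trans hα.symm)]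
    · exact mul_left_cancel (h.trans hu.symm)
    · have h2 : α u = u * z := by rw [← h, ← mul_assoc, hu, one_mul]
      exact fix_of_sq ho (by rw [h2, map_mul, h2, hα, mul_assoc, hz, mul_one])
  have h2 : ∀ k : ℕ, ∀ q : Q, q ^ 2 ^ k = 1 → α q = q := by
    intro k
    induction k with
    | zero => intro q hq; rw [pow_zero, pow_one] at hq; rw [hq, map_one]
    | succ k ih =>
      intro q hq
      have h3 : α (q * q) = q * q := ih _ (by rw [← pow_two, ← pow_mul, ← pow_succ', hq])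
      have h4 : (α q * q⁻¹) * (α q * q⁻¹) = 1 := by
        rw [mul_assoc, ← mul_assoc q⁻¹, hc q⁻¹, mul_assoc, ← mul_assoc, ← map_mul, h3]; group
      have h5 := h1 _ h4
      refine fix_of_sq ho ?_
      calc α (α q) = α (α q * q⁻¹) * α q := by rw [← map_mul]; congr 1; group
        _ = (α q * q⁻¹) * (α q * q⁻¹) * q := by rw [h5]; group
        _ = q := by rw [h4, one_mul]
  ext q
  obtain ⟨k, hk⟩ := hQ q
  exact h2 k q hk

theorem two_gen_inv {G : Type*} [Group G] {w c z : G} (hwc : Commute w c) (hw : w * w = z)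
    (hz : z * z = 1) (hz1 : z ≠ 1) {u u' : G} (hu : ∃ a i : ℤ, u = w ^ a * c ^ i)
    (hu' : ∃ a i : ℤ, u' = w ^ a * c ^ i) (h : u * u = 1) (h' : u' * u' = 1) :
    (u = 1 ∨ u = z) ∨ (u' = 1 ∨ u' = z) ∨ (u * u' = 1 ∨ u * u' = z) := by
  have hmul : ∀ a i b j : ℤ, w ^ a * c ^ i * (w ^ b * c ^ j) = w ^ (a + b) * c ^ (i + j) := by
    intro a i b j
    rw [zpow_add, zpow_add, mul_assoc, mul_assoc, ← mul_assoc (c ^ i),
      ← (hwc.zpow_zpow b i).eq, mul_assoc]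
  have hzp : ∀ k : ℤ, z ^ k = 1 ∨ z ^ k = z := by
    intro k
    have h2 : z ^ (2 : ℤ) = 1 := by rw [zpow_two, hz]
    rcases Int.even_or_odd' k with ⟨m, rfl | rfl⟩
    · left; rw [zpow_mul, h2, one_zpow]
    · right; rw [zpow_add, zpow_mul, h2, one_zpow, one_mul, zpow_one]
  have hw2 : w ^ (2 : ℤ) = z := by rw [zpow_two, hw]
  have key : ∀ y ∈ Subgroup.zpowers w, y * y = 1 → y = 1 ∨ y = z := by
    rintro _ ⟨a, rfl⟩ hy
    simp only at hy ⊢
    rcases Int.even_or_odd' a with ⟨m, rfl | rfl⟩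
    · rw [zpow_mul, hw2]; exact hzp m
    · exfalso
      rw [← zpow_add, show 2 * m + 1 + (2 * m + 1) = 2 * (2 * m + 1) by ring, zpow_mul, hw2,
        zpow_add, zpow_mul, zpow_two, hz, one_zpow, one_mul, zpow_one] at hy
      exact hz1 hy
  let N : AddSubgroup ℤ :=
    { carrier := {i | c ^ i ∈ Subgroup.zpowers w}
      add_mem' := fun {i j} hi hj => by
        simp only [Set.mem_ofPred_eq, zpow_add] at *; exact Subgroup.mul_mem _ hi hj
      zero_mem' := by simp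
      neg_mem' := fun {i} hi => by
        simp only [Set.mem_ofPred_eq, zpow_neg] at *; exact Subgroup.inv_mem _ hi }
  obtain ⟨m, hm⟩ := Int.subgroup_cyclic N
  have hN : ∀ i : ℤ, c ^ i ∈ Subgroup.zpowers w ↔ m ∣ i := fun i => by
    change i ∈ N ↔ _
    rw [hm, ← AddSubgroup.zmultiples_eq_closure, Int.mem_zmultiples_iff]
  obtain ⟨a, i, rfl⟩ := hu
  obtain ⟨b, j, rfl⟩ := hu'
  have hd : ∀ a i : ℤ, w ^ a * c ^ i * (w ^ a * c ^ i) = 1 → m ∣ i + i := by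
    intro a i h
    rw [hmul] at h
    rw [← hN, eq_inv_of_mul_eq_one_right h]
    exact Subgroup.inv_mem _ (Subgroup.zpow_mem_zpowers _ _)
  have hmem : ∀ a i : ℤ, m ∣ i → w ^ a * c ^ i ∈ Subgroup.zpowers w := fun a i h =>
    Subgroup.mul_mem _ (Subgroup.zpow_mem_zpowers _ _) ((hN i).2 h)
  obtain ⟨s, hs⟩ := hd a i h
  obtain ⟨s', hs'⟩ := hd b j h'
  rcases Int.even_or_odd' s with ⟨r, rfl | rfl⟩
  · exact Or.inl (key _ (hmem a i ⟨r, by linarith⟩) h)
  rcases Int.even_or_odd' s' with ⟨r', rfl | rfl⟩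
  · exact Or.inr (Or.inl (key _ (hmem b j ⟨r', by linarith⟩) h'))
  refine Or.inr (Or.inr (key _ ?_ ?_))
  · rw [hmul]; exact hmem _ _ ⟨r + r' + 1, by linarith⟩
  · have hcm : Commute (w ^ b * c ^ j) (w ^ a * c ^ i) := by
      rw [Commute, SemiconjBy, hmul, hmul, add_comm a, add_comm i]
    rw [mul_assoc, ← mul_assoc (w ^ b * c ^ j), hcm.eq, mul_assoc (w ^ a * c ^ i), h', mul_one, h]

variable {G : Type*} [Group G]

/-- `⟨x, f⟩` is a four-group (`z = 1`) or a quaternion group, `E = ⟨x, f⟩ C`, `N(E) = E⟨t⟩`. -/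
structure Frame (x f t z : G) (C E : Subgroup G) : Prop where
  xx : x * x = z
  ff : f * f = z
  fx : f * x = z * (x * f)
  zz : z * z = 1
  zc : ∀ g, g * z = z * g
  zC : z ∈ C
  cx : ∀ c ∈ C, c * x = x * c
  cf : ∀ c ∈ C, c * f = f * c
  ct : ∀ c ∈ C, c * t = t * c
  cc : ∀ c ∈ C, ∀ d ∈ C, c * d = d * c
  x_not : x ∉ C
  f_not : f ∉ C
  xf_not : x * f ∉ C
  mem : ∀ g, g ∈ E ↔ ∃ c ∈ C, g = c ∨ g = x * c ∨ g = f * c ∨ g = x * (f * c)
  norm : ∀ n ∈ Subgroup.normalizer (E : Set G), n ∈ E ∨ t⁻¹ * n ∈ E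
  tf : t * f * t⁻¹ = f ∨ t * f * t⁻¹ = z * f
  tx : t * x * t⁻¹ = x * f ∨ t * x * t⁻¹ = z * (x * f)
  cyc : z = 1 ∨ ∃ c ∈ C, ∀ d ∈ C, ∃ i : ℤ, d = c ^ i ∨ d = z * c ^ i

namespace Frame

variable {x f t z : G} {C E : Subgroup G} (h : Frame x f t z C E)
include h

theorem xx' (g : G) : x * (x * g) = z * g := by rw [← mul_assoc, h.xx]
theorem ff' (g : G) : f * (f * g) = z * g := by rw [← mul_assoc, h.ff]
theorem zz' (g : G) : z * (z * g) = g := by rw [← mul_assoc, h.zz, one_mul]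
theorem fx' (g : G) : f * (x * g) = z * (x * (f * g)) := by
  rw [← mul_assoc, h.fx, mul_assoc, mul_assoc]
theorem xz' (g : G) : x * (z * g) = z * (x * g) := by rw [← mul_assoc, h.zc, mul_assoc]
theorem fz' (g : G) : f * (z * g) = z * (f * g) := by rw [← mul_assoc, h.zc, mul_assoc]
theorem x_inv : x⁻¹ = z * x := by
  rw [inv_eq_iff_mul_eq_one, h.xz', h.xx, h.zz]
theorem f_inv : f⁻¹ = z * f := by
  rw [inv_eq_iff_mul_eq_one, h.fz', h.ff, h.zz]
theorem z_inv : z⁻¹ = z := by rw [inv_eq_iff_mul_eq_one, h.zz]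

theorem C_le : C ≤ E := fun c hc => (h.mem c).2 ⟨c, hc, Or.inl rfl⟩
theorem x_mem : x ∈ E := (h.mem x).2 ⟨1, C.one_mem, Or.inr (Or.inl (mul_one x).symm)⟩
theorem f_mem : f ∈ E := (h.mem f).2 ⟨1, C.one_mem, Or.inr (Or.inr (Or.inl (mul_one f).symm))⟩
theorem xf_mem : x * f ∈ E := E.mul_mem h.x_mem h.f_mem

theorem ce {c e : G} (hc : c ∈ C) (he : e ∈ E) : c * e = e * c := by
  obtain ⟨d, hd, rfl | rfl | rfl | rfl⟩ := (h.mem e).1 he
  · exact h.cc _ hc _ hd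
  · rw [← mul_assoc, h.cx _ hc, mul_assoc, h.cc _ hc _ hd, mul_assoc]
  · rw [← mul_assoc, h.cf _ hc, mul_assoc, h.cc _ hc _ hd, mul_assoc]
  · rw [← mul_assoc, h.cx _ hc, mul_assoc, ← mul_assoc c, h.cf _ hc, mul_assoc, h.cc _ hc _ hd]
    simp only [mul_assoc]

/-- Homomorphisms on `E` are determined on `x`, `f` and `C`. -/
theorem ext {φ ψ : G → G} (hφ : IsHomOn E φ) (hψ : IsHomOn E ψ) (hx : φ x = ψ x) (hf : φ f = ψ f)
    (hC : ∀ c ∈ C, φ c = ψ c) : ∀ e ∈ E, φ e = ψ e := by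
  intro e he
  obtain ⟨c, hc, rfl | rfl | rfl | rfl⟩ := (h.mem e).1 he
  · exact hC _ hc
  · rw [hφ.map_mul h.x_mem (h.C_le hc), hψ.map_mul h.x_mem (h.C_le hc), hx, hC _ hc]
  · rw [hφ.map_mul h.f_mem (h.C_le hc), hψ.map_mul h.f_mem (h.C_le hc), hf, hC _ hc]
  · rw [hφ.map_mul h.x_mem (E.mul_mem h.f_mem (h.C_le hc)),
      hψ.map_mul h.x_mem (E.mul_mem h.f_mem (h.C_le hc)), hφ.map_mul h.f_mem (h.C_le hc),
      hψ.map_mul h.f_mem (h.C_le hc), hx, hf, hC _ hc]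

/-- The automorphism interchanging `x` and `f`. -/
theorem exists_swap : ∃ β : MulAut E, equivFun β x = f ∧ equivFun β f = x ∧
    ∀ c ∈ C, equivFun β c = c := by
  classical
  let b : G → G := fun g => if g ∈ C then g else if x⁻¹ * g ∈ C then f * (x⁻¹ * g)
    else if f⁻¹ * g ∈ C then x * (f⁻¹ * g) else z * g
  have n1 : ∀ c ∈ C, x * c ∉ C := fun c hc h' => h.x_not ((C.mul_mem_cancel_right hc).1 h')
  have n2 : ∀ c ∈ C, f * c ∉ C := fun c hc h' => h.f_not ((C.mul_mem_cancel_right hc).1 h')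
  have n3 : ∀ c ∈ C, x * (f * c) ∉ C := fun c hc h' =>
    h.xf_not ((C.mul_mem_cancel_right hc).1 (by rwa [mul_assoc]))
  have b0 : ∀ c ∈ C, b c = c := fun c hc => if_pos hc
  have b1 : ∀ c ∈ C, b (x * c) = f * c := fun c hc => by
    simp only [b, if_neg (n1 c hc), inv_mul_cancel_left, if_pos hc]
  have b2 : ∀ c ∈ C, b (f * c) = x * c := fun c hc => by
    have : x⁻¹ * (f * c) ∉ C := by
      rw [h.x_inv, mul_assoc]
      exact fun h' => n3 c hc ((C.mul_mem_cancel_left h.zC).1 h')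
    simp only [b, if_neg (n2 c hc), if_neg this, inv_mul_cancel_left, if_pos hc]
  have b3 : ∀ c ∈ C, b (x * (f * c)) = z * (x * (f * c)) := fun c hc => by
    have : f⁻¹ * (x * (f * c)) ∉ C := by
      rw [h.f_inv, mul_assoc, h.fx', h.zz', h.ff']
      exact n1 _ (C.mul_mem h.zC hc)
    simp only [b, if_neg (n3 c hc), inv_mul_cancel_left, if_neg (n2 c hc), if_neg this]
  have lx : ∀ g ∈ E, b (x * g) = f * b g := by
    intro g hg
    obtain ⟨c, hc, rfl | rfl | rfl | rfl⟩ := (h.mem g).1 hg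
    · rw [b1 _ hc, b0 _ hc]
    · rw [h.xx', b0 _ (C.mul_mem h.zC hc), b1 _ hc, h.ff']
    · rw [b3 _ hc, b2 _ hc, h.fx']
    · rw [h.xx', ← h.fz', b2 _ (C.mul_mem h.zC hc), b3 _ hc, h.fz', h.fx', h.zz', h.ff']
  have lf : ∀ g ∈ E, b (f * g) = x * b g := by
    intro g hg
    obtain ⟨c, hc, rfl | rfl | rfl | rfl⟩ := (h.mem g).1 hg
    · rw [b2 _ hc, b0 _ hc]
    · rw [h.fx', ← h.xz', ← h.fz', b3 _ (C.mul_mem h.zC hc), b1 _ hc, h.fz', h.xz', h.zz']
    · rw [h.ff', b0 _ (C.mul_mem h.zC hc), b2 _ hc, h.xx']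
    · rw [h.fx', h.ff', h.xz', h.zz', b1 _ hc, b3 _ hc, h.xz', h.xx', h.zz']
  have lc : ∀ d ∈ C, ∀ g ∈ E, b (d * g) = d * b g := by
    intro d hd g hg
    obtain ⟨c, hc, rfl | rfl | rfl | rfl⟩ := (h.mem g).1 hg
    · rw [b0 _ hc, b0 _ (C.mul_mem hd hc)]
    · rw [← mul_assoc, h.cx _ hd, mul_assoc, b1 _ (C.mul_mem hd hc), b1 _ hc, ← mul_assoc d,
        h.cf _ hd, mul_assoc]
    · rw [← mul_assoc, h.cf _ hd, mul_assoc, b2 _ (C.mul_mem hd hc), b2 _ hc, ← mul_assoc d,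
        h.cx _ hd, mul_assoc]
    · have e : d * (x * (f * c)) = x * (f * (d * c)) := by
        rw [← mul_assoc, h.cx _ hd, mul_assoc, ← mul_assoc d, h.cf _ hd, mul_assoc]
      rw [e, b3 _ (C.mul_mem hd hc), b3 _ hc, ← e, ← mul_assoc z, ← h.zc d, mul_assoc]
  have hom : ∀ g ∈ E, ∀ g' ∈ E, b (g * g') = b g * b g' := by
    intro g hg g' hg'
    obtain ⟨c, hc, rfl | rfl | rfl | rfl⟩ := (h.mem g).1 hg
    · rw [lc _ hc _ hg', b0 _ hc]
    · rw [mul_assoc, lx _ (E.mul_mem (h.C_le hc) hg'), lc _ hc _ hg', b1 _ hc, mul_assoc]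
    · rw [mul_assoc, lf _ (E.mul_mem (h.C_le hc) hg'), lc _ hc _ hg', b2 _ hc, mul_assoc]
    · rw [mul_assoc, mul_assoc, lx _ (E.mul_mem h.f_mem (E.mul_mem (h.C_le hc) hg')),
        lf _ (E.mul_mem (h.C_le hc) hg'), lc _ hc _ hg', b3 _ hc, h.fx']
      simp only [mul_assoc]
  have hmem : ∀ g ∈ E, b g ∈ E := by
    intro g hg
    obtain ⟨c, hc, rfl | rfl | rfl | rfl⟩ := (h.mem g).1 hg
    · rwa [b0 _ hc]
    · rw [b1 _ hc]; exact E.mul_mem h.f_mem (h.C_le hc)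
    · rw [b2 _ hc]; exact E.mul_mem h.x_mem (h.C_le hc)
    · rw [b3 _ hc]; exact E.mul_mem (h.C_le h.zC) hg
  have hinv : ∀ g ∈ E, b (b g) = g := by
    intro g hg
    obtain ⟨c, hc, rfl | rfl | rfl | rfl⟩ := (h.mem g).1 hg
    · rw [b0 _ hc, b0 _ hc]
    · rw [b1 _ hc, b2 _ hc]
    · rw [b2 _ hc, b1 _ hc]
    · rw [b3 _ hc, lc _ h.zC _ hg, b3 _ hc, h.zz']
  let β : MulAut E :=
    { toFun := fun g => ⟨b g, hmem g g.2⟩
      invFun := fun g => ⟨b g, hmem g g.2⟩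
      left_inv := fun g => Subtype.ext (hinv g g.2)
      right_inv := fun g => Subtype.ext (hinv g g.2)
      map_mul' := fun g g' => Subtype.ext (hom g g.2 g' g'.2) }
  have e : ∀ g ∈ E, equivFun β g = b g := fun g hg => by rw [equivFun_of_mem _ hg]; rfl
  refine ⟨β, ?_, ?_, fun c hc => by rw [e c (h.C_le hc), b0 c hc]⟩
  · rw [e x h.x_mem]; simpa using b1 1 C.one_mem
  · rw [e f h.f_mem]; simpa using b2 1 C.one_mem

/-- Congruence modulo `C`. -/
def R (C : Subgroup G) (g g' : G) : Prop := ∃ c ∈ C, g = g' * c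

omit h in
theorem R.refl (g : G) : R C g g := ⟨1, C.one_mem, (mul_one g).symm⟩
omit h in
theorem R.of_eq {g g' : G} (e : g = g') : R C g g' := e ▸ R.refl g
omit h in
theorem R.symm {g g' : G} (a : R C g g') : R C g' g := by
  obtain ⟨c, hc, rfl⟩ := a
  exact ⟨c⁻¹, C.inv_mem hc, by group⟩
omit h in
theorem R.trans {g g' g'' : G} (a : R C g g') (b : R C g' g'') : R C g g'' := by
  obtain ⟨c, hc, rfl⟩ := a
  obtain ⟨d, hd, rfl⟩ := b
  exact ⟨d * c, C.mul_mem hd hc, mul_assoc _ _ _⟩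

theorem R_mul {g g' k k' : G} (a : R C g g') (b : R C k k') (hk : k' ∈ E) :
    R C (g * k) (g' * k') := by
  obtain ⟨c, hc, rfl⟩ := a
  obtain ⟨d, hd, rfl⟩ := b
  exact ⟨c * d, C.mul_mem hc hd, by
    rw [mul_assoc, ← mul_assoc c, h.ce hc hk]; simp only [mul_assoc]⟩

theorem R_z (g : G) : R C (z * g) g := ⟨z, h.zC, (h.zc g).symm⟩

theorem R_cases {g : G} (hg : g ∈ E) : g ∈ C ∨ R C g x ∨ R C g f ∨ R C g (x * f) := by
  obtain ⟨c, hc, rfl | rfl | rfl | rfl⟩ := (h.mem g).1 hg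
  · exact Or.inl hc
  · exact Or.inr (Or.inl ⟨c, hc, rfl⟩)
  · exact Or.inr (Or.inr (Or.inl ⟨c, hc, rfl⟩))
  · exact Or.inr (Or.inr (Or.inr ⟨c, hc, (mul_assoc _ _ _).symm⟩))

theorem not_R_x_f : ¬ R C x f := by
  rintro ⟨c, hc, e⟩
  refine h.xf_not ?_
  rw [e, mul_assoc, h.cf _ hc, h.ff']
  exact C.mul_mem h.zC hc

theorem not_R_xf_x : ¬ R C (x * f) x := by
  rintro ⟨c, hc, e⟩
  exact h.f_not (mul_left_cancel e ▸ hc)

theorem not_R_xf_f : ¬ R C (x * f) f := by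
  rintro ⟨c, hc, e⟩
  rw [← h.cf _ hc] at e
  exact h.x_not (mul_right_cancel e ▸ hc)

theorem R_fx : R C (f * x) (x * f) := h.fx ▸ h.R_z _
theorem R_xff : R C (x * f * f) x := ⟨z, h.zC, by rw [mul_assoc, h.ff]⟩
theorem R_xfx : R C (x * f * x) f :=
  R.of_eq (by rw [mul_assoc, h.fx, h.xz', h.xx', h.zz'])
theorem R_xxf : R C (x * (x * f)) f := by rw [h.xx']; exact h.R_z f
theorem R_fxf : R C (f * (x * f)) x := by
  rw [h.fx', h.ff, ← h.xz', h.zz, mul_one]; exact R.refl x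

/-- The subgroup `⟨x, f⟩`. -/
def W (x f : G) : Subgroup G := Subgroup.closure {x, f}

omit h in
theorem x_W : x ∈ W x f := Subgroup.subset_closure (by simp)
omit h in
theorem f_W : f ∈ W x f := Subgroup.subset_closure (by simp)
theorem z_W : z ∈ W x f := h.xx ▸ Subgroup.mul_mem _ x_W x_W
theorem W_le : W x f ≤ E := (Subgroup.closure_le _).2 (by
  rintro _ (rfl | rfl); exacts [h.x_mem, h.f_mem])

theorem W_cases {w : G} (hw : w ∈ W x f) : ∃ c, (c = 1 ∨ c = z) ∧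
    (w = c ∨ w = x * c ∨ w = f * c ∨ w = x * (f * c)) := by
  have hz : ∀ c, (c = 1 ∨ c = z) → (z * c = 1 ∨ z * c = z) := by
    rintro _ (rfl | rfl)
    · exact Or.inr (mul_one _)
    · exact Or.inl h.zz
  refine Subgroup.closure_induction_left (p := fun w _ => ∃ c, (c = 1 ∨ c = z) ∧
    (w = c ∨ w = x * c ∨ w = f * c ∨ w = x * (f * c))) ⟨1, Or.inl rfl, Or.inl rfl⟩ ?_ ?_ hw
  all_goals
    have lx : ∀ w, (∃ c, (c = 1 ∨ c = z) ∧ (w = c ∨ w = x * c ∨ w = f * c ∨ w = x * (f * c))) →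
        ∃ c, (c = 1 ∨ c = z) ∧
          (x * w = c ∨ x * w = x * c ∨ x * w = f * c ∨ x * w = x * (f * c)) := by
      rintro w ⟨c, hc, rfl | rfl | rfl | rfl⟩
      · exact ⟨_, hc, Or.inr (Or.inl rfl)⟩
      · exact ⟨_, hz c hc, Or.inl (h.xx' c)⟩
      · exact ⟨_, hc, Or.inr (Or.inr (Or.inr rfl))⟩
      · exact ⟨_, hz c hc, Or.inr (Or.inr (Or.inl (by rw [h.xx', h.fz'])))⟩
    have lf : ∀ w, (∃ c, (c = 1 ∨ c = z) ∧ (w = c ∨ w = x * c ∨ w = f * c ∨ w = x * (f * c))) →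
        ∃ c, (c = 1 ∨ c = z) ∧
          (f * w = c ∨ f * w = x * c ∨ f * w = f * c ∨ f * w = x * (f * c)) := by
      rintro w ⟨c, hc, rfl | rfl | rfl | rfl⟩
      · exact ⟨_, hc, Or.inr (Or.inr (Or.inl rfl))⟩
      · exact ⟨_, hz c hc, Or.inr (Or.inr (Or.inr (by rw [h.fx', h.fz', h.xz'])))⟩
      · exact ⟨_, hz c hc, Or.inl (h.ff' c)⟩
      · exact ⟨_, hc, Or.inr (Or.inl (by rw [h.fx', h.ff', h.xz', h.zz']))⟩
    have lz : ∀ w, (∃ c, (c = 1 ∨ c = z) ∧ (w = c ∨ w = x * c ∨ w = f * c ∨ w = x * (f * c))) →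
        ∃ c, (c = 1 ∨ c = z) ∧
          (z * w = c ∨ z * w = x * c ∨ z * w = f * c ∨ z * w = x * (f * c)) := by
      intro w hw
      simpa only [h.xx'] using lx _ (lx w hw)
  · rintro _ (rfl | rfl) w _ hw
    exacts [lx w hw, lf w hw]
  · rintro _ (rfl | rfl) w _ hw
    · rw [h.x_inv, mul_assoc]; exact lz _ (lx w hw)
    · rw [h.f_inv, mul_assoc]; exact lz _ (lf w hw)

theorem W_inf {w : G} (hw : w ∈ W x f) (hC : w ∈ C) : w = 1 ∨ w = z := by
  obtain ⟨c, hc, e⟩ := h.W_cases hw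
  have hcC : c ∈ C := by rcases hc with rfl | rfl; exacts [C.one_mem, h.zC]
  rcases e with rfl | rfl | rfl | rfl
  · exact hc
  · exact (h.x_not ((C.mul_mem_cancel_right hcC).1 hC)).elim
  · exact (h.f_not ((C.mul_mem_cancel_right hcC).1 hC)).elim
  · exact (h.xf_not ((C.mul_mem_cancel_right hcC).1 (by rwa [mul_assoc]))).elim

theorem W_R {w w' : G} (hw : w ∈ W x f) (hw' : w' ∈ W x f) (a : R C w w') :
    w = w' ∨ w = z * w' := by
  obtain ⟨c, hc, rfl⟩ := a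
  rcases h.W_inf (((W x f).mul_mem_cancel_left hw').1 hw) hc with rfl | rfl
  · exact Or.inl (mul_one _)
  · exact Or.inr (h.zc _)

/-- The automorphisms of `E` centralizing `C` and normalizing `⟨x, f⟩`. -/
def Del (x f : G) (C E : Subgroup G) : Subgroup (MulAut E) where
  carrier := {δ | (∀ c ∈ C, c ∈ E → equivFun δ c = c) ∧
    ∀ w ∈ E, equivFun δ w ∈ W x f ↔ w ∈ W x f}
  mul_mem' := fun {α β} hα hβ => ⟨fun c hc hE => by
    rw [equivFun_mul _ _ hE, hβ.1 c hc hE, hα.1 c hc hE], fun w hw => by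
    rw [equivFun_mul _ _ hw, hα.2 _ (equivFun_mem β hw), hβ.2 w hw]⟩
  one_mem' := ⟨fun c _ hE => equivFun_one hE, fun w hw => by rw [equivFun_one hw]⟩
  inv_mem' := fun {α} hα => ⟨fun c hc hE => by
    conv_lhs => rw [← hα.1 c hc hE]
    exact equivFun_inv_apply α hE, fun w hw => by
    rw [← hα.2 _ (equivFun_mem α⁻¹ hw), equivFun_apply_inv α hw]⟩

theorem Del_fix {δ : MulAut E} (hδ : δ ∈ Del x f C E) {c : G} (hc : c ∈ C) : equivFun δ c = c :=
  hδ.1 c hc (h.C_le hc)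

theorem Del_W {δ : MulAut E} (hδ : δ ∈ Del x f C E) {w : G} (hw : w ∈ W x f) :
    equivFun δ w ∈ W x f := (hδ.2 w (h.W_le hw)).2 hw

theorem Del_R {δ : MulAut E} (hδ : δ ∈ Del x f C E) {g g' : G} (hg : g' ∈ E) (a : R C g g') :
    R C (equivFun δ g) (equivFun δ g') := by
  obtain ⟨c, hc, rfl⟩ := a
  exact ⟨c, hc, by rw [(isHomOn_equivFun δ).map_mul hg (h.C_le hc), h.Del_fix hδ hc]⟩

theorem Del_not {δ : MulAut E} (hδ : δ ∈ Del x f C E) {g : G} (hg : g ∈ E) (hC : g ∉ C) :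
    equivFun δ g ∉ C := fun h' => hC (by
  rw [← equivFun_inv_apply δ hg, h.Del_fix ((Del x f C E).inv_mem hδ) h']; exact h')

theorem Del_R_inj {δ : MulAut E} (hδ : δ ∈ Del x f C E) {g g' : G} (hg : g ∈ E) (hg' : g' ∈ E)
    (a : R C (equivFun δ g) (equivFun δ g')) : R C g g' := by
  have := h.Del_R ((Del x f C E).inv_mem hδ) (equivFun_mem δ hg') a
  rwa [equivFun_inv_apply δ hg, equivFun_inv_apply δ hg'] at this

theorem Del_xf (δ : MulAut E) : equivFun δ (x * f) = equivFun δ x * equivFun δ f :=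
  (isHomOn_equivFun δ).map_mul h.x_mem h.f_mem

variable [Finite G]

theorem mem_Del {δ : MulAut E} (hC : ∀ c ∈ C, equivFun δ c = c) (hx : equivFun δ x ∈ W x f)
    (hf : equivFun δ f ∈ W x f) : δ ∈ Del x f C E := by
  have h1 : ∀ w ∈ W x f, equivFun δ w ∈ W x f :=
    (isHomOn_equivFun δ).mapsTo_closure (s := {x, f})
      (by rintro _ (rfl | rfl); exacts [h.x_mem, h.f_mem]) (by rintro _ (rfl | rfl); assumption')
  refine ⟨fun c hc _ => hC c hc, fun w hw => ⟨fun h' => ?_, h1 w⟩⟩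
  have h2 : ∀ k : ℕ, ∀ w ∈ W x f, equivFun (δ ^ k) w ∈ W x f := by
    intro k
    induction k with
    | zero => intro w hw; rwa [pow_zero, equivFun_one (h.W_le hw)]
    | succ k ih => intro w hw; rw [pow_succ', equivFun_mul _ _ (h.W_le hw)]; exact h1 _ (ih w hw)
  have h3 := h2 (orderOf δ - 1) _ h'
  rwa [← equivFun_mul _ _ hw, ← pow_succ, Nat.sub_add_cancel (orderOf_pos δ),
    pow_orderOf_eq_one, equivFun_one hw] at h3

theorem conj_z (g y : G) : g * (z * y) * g⁻¹ = z * (g * y * g⁻¹) := by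
  rw [← mul_assoc g, h.zc]; simp only [mul_assoc]

theorem inn_of_R {δ : MulAut E} (hδ : δ ∈ Del x f C E) (hx : R C (equivFun δ x) x)
    (hf : R C (equivFun δ f) f) : ∃ e ∈ E, ∀ y ∈ E, equivFun δ y = e * y * e⁻¹ := by
  have key : ∀ e ∈ E, equivFun δ x = e * x * e⁻¹ → equivFun δ f = e * f * e⁻¹ →
      ∃ e ∈ E, ∀ y ∈ E, equivFun δ y = e * y * e⁻¹ := fun e he h1 h2 =>
    ⟨e, he, h.ext (isHomOn_equivFun δ) (isHomOn_conj E e) h1 h2 fun c hc => by
      rw [h.Del_fix hδ hc, ← h.ce hc he, mul_inv_cancel_right]⟩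
  have e1 : f * x * f⁻¹ = z * x := by rw [h.fx]; group
  have e2 : x * f * x⁻¹ = z * f := by
    rw [mul_inv_eq_iff_eq_mul, mul_assoc, h.fx, h.zz']
  rcases h.W_R (h.Del_W hδ x_W) x_W hx with a | a <;>
    rcases h.W_R (h.Del_W hδ f_W) f_W hf with b | b
  · exact key 1 E.one_mem (by rw [a]; group) (by rw [b]; group)
  · exact key x h.x_mem (by rw [a]; group) (by rw [b, e2])
  · exact key f h.f_mem (by rw [a, e1]) (by rw [b]; group)
  · refine key (x * f) h.xf_mem ?_ ?_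
    · rw [a, show x * f * x * (x * f)⁻¹ = x * (f * x * f⁻¹) * x⁻¹ by group, e1, h.conj_z]; group
    · rw [b, ← e2]; group

theorem conj_R {e y : G} (he : e ∈ E) (hy : y ∈ W x f) : e * y * e⁻¹ = y ∨ e * y * e⁻¹ = z * y := by
  have e1 : f * x * f⁻¹ = z * x := by rw [h.fx]; group
  have e2 : x * f * x⁻¹ = z * f := by
    rw [mul_inv_eq_iff_eq_mul, mul_assoc, h.fx, h.zz']
  have hz : ∀ g y y', (y' = y ∨ y' = z * y) → (g * y * g⁻¹ = y ∨ g * y * g⁻¹ = z * y) →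
      (g * y' * g⁻¹ = y ∨ g * y' * g⁻¹ = z * y) := by
    rintro g y _ (rfl | rfl) a
    · exact a
    · rw [h.conj_z]
      rcases a with a | a <;> rw [a]
      · exact Or.inr rfl
      · exact Or.inl (h.zz' y)
  have hx : x * y * x⁻¹ = y ∨ x * y * x⁻¹ = z * y := by
    obtain ⟨c, hc, a⟩ := h.W_cases hy
    have hcx : c * x⁻¹ = x⁻¹ * c := by
      rcases hc with rfl | rfl
      · simp
      · exact (h.zc _).symm
    rcases a with rfl | rfl | rfl | rfl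
    · left; rw [mul_assoc, hcx]; group
    · left; rw [mul_assoc, mul_assoc, hcx]; group
    · right; rw [mul_assoc, mul_assoc, hcx, ← mul_assoc, ← mul_assoc, e2, mul_assoc]
    · right
      rw [mul_assoc, mul_assoc, mul_assoc, hcx, ← mul_assoc f, ← mul_assoc x (f * x⁻¹),
        ← mul_assoc x f, e2, mul_assoc, h.xz']
  have hf : f * y * f⁻¹ = y ∨ f * y * f⁻¹ = z * y := by
    obtain ⟨c, hc, a⟩ := h.W_cases hy
    have hcf : c * f⁻¹ = f⁻¹ * c := by
      rcases hc with rfl | rfl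
      · simp
      · exact (h.zc _).symm
    rcases a with rfl | rfl | rfl | rfl
    · left; rw [mul_assoc, hcf]; group
    · right; rw [mul_assoc, mul_assoc, hcf, ← mul_assoc, ← mul_assoc, e1, mul_assoc]
    · left; rw [mul_assoc, mul_assoc, hcf]; group
    · right
      rw [mul_assoc, mul_assoc, mul_assoc, hcf, mul_inv_cancel_left, ← mul_assoc, h.fx]
      simp only [mul_assoc]
  obtain ⟨c, hc, a⟩ := (h.mem e).1 he
  have hc' : c * y * c⁻¹ = y := by rw [h.ce hc (h.W_le hy), mul_inv_cancel_right]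
  rcases a with rfl | rfl | rfl | rfl
  · exact Or.inl hc'
  · rwa [show x * c * y * (x * c)⁻¹ = x * (c * y * c⁻¹) * x⁻¹ by group, hc']
  · rwa [show f * c * y * (f * c)⁻¹ = f * (c * y * c⁻¹) * f⁻¹ by group, hc']
  · rw [show x * (f * c) * y * (x * (f * c))⁻¹ = x * (f * (c * y * c⁻¹) * f⁻¹) * x⁻¹ by group, hc']
    exact hz x y _ hf hx

theorem t_R_f : R C (t * f * t⁻¹) f := by
  rcases h.tf with e | e <;> rw [e]
  exacts [R.refl f, h.R_z f]

theorem t_R_x : R C (t * x * t⁻¹) (x * f) := by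
  rcases h.tx with e | e <;> rw [e]
  exacts [R.refl _, h.R_z _]

theorem t_W_f : t * f * t⁻¹ ∈ W x f := by
  rcases h.tf with e | e <;> rw [e]
  exacts [f_W, Subgroup.mul_mem _ h.z_W f_W]

theorem t_W_x : t * x * t⁻¹ ∈ W x f := by
  rcases h.tx with e | e <;> rw [e]
  exacts [Subgroup.mul_mem _ x_W f_W, Subgroup.mul_mem _ h.z_W (Subgroup.mul_mem _ x_W f_W)]

theorem t_norm : t ∈ Subgroup.normalizer (E : Set G) := by
  refine mem_normalizer_of_finite fun e he => ?_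
  have h0 : ∀ c ∈ C, t * c * t⁻¹ ∈ E := fun c hc => by
    rw [← h.ct c hc, mul_inv_cancel_right]; exact h.C_le hc
  obtain ⟨c, hc, rfl | rfl | rfl | rfl⟩ := (h.mem e).1 he
  · exact h0 _ hc
  · rw [show t * (x * c) * t⁻¹ = t * x * t⁻¹ * (t * c * t⁻¹) by group]
    exact E.mul_mem (h.W_le h.t_W_x) (h0 c hc)
  · rw [show t * (f * c) * t⁻¹ = t * f * t⁻¹ * (t * c * t⁻¹) by group]
    exact E.mul_mem (h.W_le h.t_W_f) (h0 c hc)
  · rw [show t * (x * (f * c)) * t⁻¹ = t * x * t⁻¹ * (t * f * t⁻¹ * (t * c * t⁻¹)) by group]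
    exact E.mul_mem (h.W_le h.t_W_x) (E.mul_mem (h.W_le h.t_W_f) (h0 c hc))

theorem conj_mem_Del {e : G} (he : e ∈ E) : conjAut E (Subgroup.le_normalizer he) ∈ Del x f C E ∧
    ∀ y ∈ E, R C (e * y * e⁻¹) y := by
  have hW : ∀ y ∈ W x f, e * y * e⁻¹ ∈ W x f := fun y hy => by
    rcases h.conj_R he hy with a | a <;> rw [a]
    exacts [hy, Subgroup.mul_mem _ h.z_W hy]
  have hR : ∀ y ∈ W x f, R C (e * y * e⁻¹) y := fun y hy => by
    rcases h.conj_R he hy with a | a <;> rw [a]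
    exacts [R.refl y, h.R_z y]
  have hD : conjAut E (Subgroup.le_normalizer he) ∈ Del x f C E :=
    h.mem_Del (fun c hc => by
      rw [equivFun_conjAut _ (h.C_le hc), ← h.ce hc he, mul_inv_cancel_right])
    (by rw [equivFun_conjAut _ h.x_mem]; exact hW x x_W)
    (by rw [equivFun_conjAut _ h.f_mem]; exact hW f f_W)
  refine ⟨hD, fun y hy => ?_⟩
  have key : ∀ w ∈ W x f, R C y w → R C (e * y * e⁻¹) y := fun w hw a => by
    have := h.Del_R hD (h.W_le hw) a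
    rw [equivFun_conjAut _ hy, equivFun_conjAut _ (h.W_le hw)] at this
    exact (this.trans (hR w hw)).trans a.symm
  rcases h.R_cases hy with a | a | a | a
  · exact key 1 (Subgroup.one_mem _) ⟨y, a, (one_mul y).symm⟩
  · exact key x x_W a
  · exact key f f_W a
  · exact key _ (Subgroup.mul_mem _ x_W f_W) a

theorem t_mem_Del : conjAut E h.t_norm ∈ Del x f C E :=
  h.mem_Del (fun c hc => by
      rw [equivFun_conjAut _ (h.C_le hc), ← h.ct c hc, mul_inv_cancel_right])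
    (by rw [equivFun_conjAut _ h.x_mem]; exact h.t_W_x)
    (by rw [equivFun_conjAut _ h.f_mem]; exact h.t_W_f)

theorem t_R_xf : R C (t * (x * f) * t⁻¹) x := by
  rw [show t * (x * f) * t⁻¹ = t * x * t⁻¹ * (t * f * t⁻¹) by group]
  exact (h.R_mul h.t_R_x h.t_R_f h.f_mem).trans h.R_xff

theorem t_conj_R {e y : G} (he : e ∈ E) (hy : y ∈ E) :
    R C (t * e * y * (t * e)⁻¹) (t * y * t⁻¹) := by
  have := h.Del_R h.t_mem_Del hy ((h.conj_mem_Del he).2 y hy)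
  rw [equivFun_conjAut _ hy, equivFun_conjAut _ (E.mul_mem (E.mul_mem he hy) (E.inv_mem he))]
    at this
  rwa [show t * e * y * (t * e)⁻¹ = t * (e * y * e⁻¹) * t⁻¹ by group]

theorem mem_aut_iff {δ : MulAut E} :
    δ ∈ autInducedBy ⊤ E ↔ δ ∈ Del x f C E ∧ R C (equivFun δ f) f := by
  constructor
  · intro hδ
    obtain ⟨a, -, ha, e⟩ := mem_autInducedBy_iff'.1 hδ
    rcases h.norm a ha with h1 | h1
    · have : δ = conjAut E (Subgroup.le_normalizer h1) :=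
        mulEquiv_ext_equivFun fun y hy => by rw [e y hy, equivFun_conjAut _ hy]
      refine ⟨this ▸ (h.conj_mem_Del h1).1, ?_⟩
      rw [e f h.f_mem]; exact (h.conj_mem_Del h1).2 f h.f_mem
    · obtain ⟨b, hb, rfl⟩ : ∃ b ∈ E, a = t * b := ⟨_, h1, by group⟩
      have : δ = conjAut E h.t_norm * conjAut E (Subgroup.le_normalizer hb) :=
        mulEquiv_ext_equivFun fun y hy => by
          rw [e y hy, equivFun_mul _ _ hy, equivFun_conjAut _ hy,
            equivFun_conjAut _ (E.mul_mem (E.mul_mem hb hy) (E.inv_mem hb))]; group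
      refine ⟨this ▸ Subgroup.mul_mem _ h.t_mem_Del (h.conj_mem_Del hb).1, ?_⟩
      rw [e f h.f_mem]; exact (h.t_conj_R hb h.f_mem).trans h.t_R_f
  · rintro ⟨hδ, hf⟩
    have key : ∀ δ ∈ Del x f C E, R C (equivFun δ x) x → R C (equivFun δ f) f →
        δ ∈ autInducedBy ⊤ E := fun δ hδ hx hf => by
      obtain ⟨e, he, a⟩ := h.inn_of_R hδ hx hf
      exact mem_autInducedBy_iff'.2 ⟨e, trivial, Subgroup.le_normalizer he, a⟩
    rcases h.R_cases (equivFun_mem δ h.x_mem) with a | a | a | a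
    · exact (h.Del_not hδ h.x_mem h.x_not a).elim
    · exact key δ hδ a hf
    · exact (h.not_R_x_f (h.Del_R_inj hδ h.x_mem h.f_mem (a.trans hf.symm))).elim
    · have h1 := key (conjAut E h.t_norm * δ) (Subgroup.mul_mem _ h.t_mem_Del hδ) (by
        rw [equivFun_mul _ _ h.x_mem]
        refine (h.Del_R h.t_mem_Del h.xf_mem a).trans ?_
        rw [equivFun_conjAut _ h.xf_mem]; exact h.t_R_xf) (by
        rw [equivFun_mul _ _ h.f_mem]
        refine (h.Del_R h.t_mem_Del h.f_mem hf).trans ?_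
        rw [equivFun_conjAut _ h.f_mem]; exact h.t_R_f)
      exact (Subgroup.mul_mem_cancel_left _ (conjAut_mem_autInducedBy (Subgroup.mem_top t) h.t_norm)).1 h1

theorem cyc_sq {σ : MulAut E} (hσ : σ ∈ Del x f C E)
    (a : (R C (equivFun σ f) x ∧ R C (equivFun σ x) (x * f)) ∨
      (R C (equivFun σ f) (x * f) ∧ R C (equivFun σ x) f)) :
    (R C (equivFun (σ * σ) f) x ∧ R C (equivFun (σ * σ) x) (x * f)) ∨
      (R C (equivFun (σ * σ) f) (x * f) ∧ R C (equivFun (σ * σ) x) f) := by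
  rw [equivFun_mul _ _ h.x_mem, equivFun_mul _ _ h.f_mem]
  rcases a with ⟨a, b⟩ | ⟨a, b⟩
  · refine Or.inr ⟨(h.Del_R hσ h.x_mem a).trans b, (h.Del_R hσ h.xf_mem b).trans ?_⟩
    rw [h.Del_xf]
    exact (h.R_mul b a h.x_mem).trans h.R_xfx
  · refine Or.inl ⟨(h.Del_R hσ h.xf_mem a).trans ?_, (h.Del_R hσ h.f_mem b).trans a⟩
    rw [h.Del_xf]
    exact (h.R_mul b a h.xf_mem).trans h.R_fxf

theorem sylowIn (hG : IsPGroup 2 G) : SylowIn 2 (autInducedBy ⊤ E) (Del x f C E) := by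
  refine ⟨fun δ hδ => (h.mem_aut_iff.1 hδ).1, isPGroup_autInducedBy (hG.to_subgroup ⊤) E,
    fun K hK hTK hKD δ hδ => ?_⟩
  have htK : conjAut E h.t_norm ∈ K := hTK (conjAut_mem_autInducedBy (Subgroup.mem_top t) h.t_norm)
  have key : ∀ σ ∈ K, R C (equivFun σ f) x → ¬ R C (equivFun σ x) (x * f) := by
    intro σ hσ a b
    have h1 : ∀ k : ℕ, (R C (equivFun (σ ^ 2 ^ k) f) x ∧ R C (equivFun (σ ^ 2 ^ k) x) (x * f)) ∨
      (R C (equivFun (σ ^ 2 ^ k) f) (x * f) ∧ R C (equivFun (σ ^ 2 ^ k) x) f) := by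
      intro k
      induction k with
      | zero => exact Or.inl (by simpa using ⟨a, b⟩)
      | succ k ih =>
        rw [pow_succ, pow_mul, pow_two]
        exact h.cyc_sq (Subgroup.pow_mem _ (hKD hσ) _) ih
    obtain ⟨k, hk⟩ := hK ⟨σ, hσ⟩
    have hk' : σ ^ 2 ^ k = 1 := congrArg Subtype.val hk
    have h2 := h1 k
    rw [hk', equivFun_one h.x_mem, equivFun_one h.f_mem] at h2
    rcases h2 with ⟨a, -⟩ | ⟨-, a⟩
    exacts [h.not_R_x_f a.symm, h.not_R_x_f a]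
  have key2 : ∀ σ ∈ K, ¬ R C (equivFun σ f) x := by
    intro σ hσ a
    rcases h.R_cases (equivFun_mem σ h.x_mem) with b | b | b | b
    · exact h.Del_not (hKD hσ) h.x_mem h.x_not b
    · exact h.not_R_x_f (h.Del_R_inj (hKD hσ) h.x_mem h.f_mem (b.trans a.symm))
    · refine key (σ * conjAut E h.t_norm) (K.mul_mem hσ htK) ?_ ?_
      · rw [equivFun_mul _ _ h.f_mem, equivFun_conjAut _ h.f_mem]
        exact (h.Del_R (hKD hσ) h.f_mem h.t_R_f).trans a
      · rw [equivFun_mul _ _ h.x_mem, equivFun_conjAut _ h.x_mem]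
        refine (h.Del_R (hKD hσ) h.xf_mem h.t_R_x).trans ?_
        rw [h.Del_xf]
        exact (h.R_mul b a h.x_mem).trans h.R_fx
    · exact key σ hσ a b
  rcases h.R_cases (equivFun_mem δ h.f_mem) with a | a | a | a
  · exact (h.Del_not (hKD hδ) h.f_mem h.f_not a).elim
  · exact (key2 δ hδ a).elim
  · exact h.mem_aut_iff.2 ⟨hKD hδ, a⟩
  · refine (key2 (conjAut E h.t_norm * δ) (K.mul_mem htK hδ) ?_).elim
    rw [equivFun_mul _ _ h.f_mem]
    refine (h.Del_R h.t_mem_Del h.xf_mem a).trans ?_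
    rw [equivFun_conjAut _ h.xf_mem]; exact h.t_R_xf

theorem ti {δ : MulAut E} (hδ : δ ∈ Del x f C E) (hn : δ ∉ autInducedBy ⊤ E) {a : G}
    (ha : a ∈ Subgroup.normalizer (E : Set G)) (h1 : δ * conjAut E ha * δ⁻¹ ∈ autInducedBy ⊤ E) :
    a ∈ E := by
  rcases h.norm a ha with h2 | h2
  · exact h2
  exfalso
  obtain ⟨b, hb, rfl⟩ : ∃ b ∈ E, a = t * b := ⟨_, h2, by group⟩
  have hy := equivFun_mem δ⁻¹ h.f_mem
  set y := equivFun δ⁻¹ f with hyd
  have e : equivFun δ y = f := equivFun_apply_inv δ h.f_mem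
  have h3 := (h.mem_aut_iff.1 h1).2
  rw [equivFun_mul _ _ h.f_mem, equivFun_mul _ _ hy, equivFun_conjAut _ hy] at h3
  have h4 : R C (t * y * t⁻¹) y := (h.t_conj_R hb hy).symm.trans
    (h.Del_R_inj hδ (conj_mem_of_mem_normalizer ha hy) hy (e ▸ h3))
  have h5 : ∀ w ∈ E, R C y w → R C (t * w * t⁻¹) w := fun w hw a => by
    have := h.Del_R h.t_mem_Del hw a
    rw [equivFun_conjAut _ hy, equivFun_conjAut _ hw] at this
    exact (this.symm.trans h4).trans a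
  rcases h.R_cases hy with a | a | a | a
  · exact h.Del_not ((Del x f C E).inv_mem hδ) h.f_mem h.f_not a
  · exact h.not_R_xf_x (h.t_R_x.symm.trans (h5 x h.x_mem a))
  · refine hn (h.mem_aut_iff.2 ⟨hδ, ?_⟩)
    have := h.Del_R hδ h.f_mem a
    rw [e] at this
    exact this.symm
  · exact h.not_R_xf_x (h.t_R_xf.symm.trans (h5 _ h.xf_mem a)).symm

theorem sub_aut (hG : IsPGroup 2 G) {Q : Subgroup G} (hQ : Q < E) (hc : centralizerIn ⊤ Q ≤ Q)
    (α : MulAut Q) (hα : z ∈ Q → equivFun α z = z) (ho : (orderOf α).Coprime 2) : α = 1 := by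
  have hCQ : C ≤ Q := fun c hc' => hc (mem_centralizerIn'.2 ⟨trivial, fun y hy =>
    (h.ce hc' (hQ.le hy)).symm⟩)
  have hR : ∀ {g g'}, R C g g' → g ∈ Q → g' ∈ Q := by
    rintro _ g' ⟨c, hc, rfl⟩ hg
    exact (Q.mul_mem_cancel_right (hCQ hc)).1 hg
  have hxf : ¬ (x ∈ Q ∧ f ∈ Q) := fun ⟨hx, hf⟩ => hQ.not_ge fun e he => by
    obtain ⟨c, hc, rfl | rfl | rfl | rfl⟩ := (h.mem e).1 he
    exacts [hCQ hc, Q.mul_mem hx (hCQ hc), Q.mul_mem hf (hCQ hc),
      Q.mul_mem hx (Q.mul_mem hf (hCQ hc))]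
  obtain ⟨w, hwE, hw, hwQ⟩ : ∃ w ∈ E, w * w = z ∧ ∀ q ∈ Q, q ∈ C ∨ R C q w := by
    by_cases hx : x ∈ Q
    · refine ⟨x, h.x_mem, h.xx, fun q hq => ?_⟩
      rcases h.R_cases (hQ.le hq) with a | a | a | a
      exacts [Or.inl a, Or.inr a, (hxf ⟨hx, hR a hq⟩).elim,
        (hxf ⟨hx, (Q.mul_mem_cancel_left hx).1 (hR a hq)⟩).elim]
    by_cases hf : f ∈ Q
    · refine ⟨f, h.f_mem, h.ff, fun q hq => ?_⟩
      rcases h.R_cases (hQ.le hq) with a | a | a | a
      exacts [Or.inl a, (hx (hR a hq)).elim, Or.inr a,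
        (hx ((Q.mul_mem_cancel_right hf).1 (hR a hq))).elim]
    · refine ⟨x * f, h.xf_mem, by rw [mul_assoc, h.fx', h.ff, h.xz', h.xx', h.zz'], fun q hq => ?_⟩
      rcases h.R_cases (hQ.le hq) with a | a | a | a
      exacts [Or.inl a, (hx (hR a hq)).elim, (hf (hR a hq)).elim, Or.inr a]
  have hcomm : ∀ q ∈ Q, ∀ q' ∈ Q, q * q' = q' * q := by
    intro q hq q' hq'
    rcases hwQ q hq with a | ⟨c, hc, rfl⟩
    · exact h.ce a (hQ.le hq')
    rcases hwQ q' hq' with a | ⟨d, hd, rfl⟩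
    · exact (h.ce a (hQ.le hq)).symm
    · rw [mul_assoc, h.ce hc (hQ.le hq'), mul_assoc w d, mul_assoc w d, ← mul_assoc d w,
        h.ce hd hwE, mul_assoc]
  by_cases hz : z = 1
  · refine (hxf ⟨hc (mem_centralizerIn'.2 ⟨trivial, fun y hy => ?_⟩),
      hc (mem_centralizerIn'.2 ⟨trivial, fun y hy => ?_⟩)⟩).elim
    · have := h.conj_R (hQ.le hy) x_W
      rw [hz, one_mul, or_self] at this
      exact mul_inv_eq_iff_eq_mul.1 this
    · have := h.conj_R (hQ.le hy) f_W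
      rw [hz, one_mul, or_self] at this
      exact mul_inv_eq_iff_eq_mul.1 this
  obtain ⟨c, hc0, hcyc⟩ := h.cyc.resolve_left hz
  have hgen : ∀ q ∈ Q, ∃ a i : ℤ, q = w ^ a * c ^ i := by
    have h1 : ∀ d ∈ C, ∃ a i : ℤ, d = w ^ a * c ^ i := fun d hd => by
      obtain ⟨i, rfl | rfl⟩ := hcyc d hd
      · exact ⟨0, i, by simp⟩
      · exact ⟨2, i, by rw [zpow_two, hw]⟩
    intro q hq
    rcases hwQ q hq with a | ⟨d, hd, rfl⟩
    · exact h1 q a
    · obtain ⟨a, i, rfl⟩ := h1 d hd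
      exact ⟨1 + a, i, by rw [zpow_one_add, mul_assoc]⟩
  refine aut_eq_one (hG.to_subgroup Q) (fun a b => Subtype.ext (hcomm a a.2 b b.2))
    (z := ⟨z, hCQ h.zC⟩) (Subtype.ext h.zz) (fun u u' hu hu' => ?_)
    (Subtype.ext (by rw [← equivFun_of_mem]; exact hα (hCQ h.zC))) ho
  have := two_gen_inv (h.ce hc0 hwE).symm hw h.zz hz (hgen u u.2) (hgen u' u'.2)
    (congrArg Subtype.val hu) (congrArg Subtype.val hu')
  simpa only [Subtype.ext_iff, Subgroup.coe_mul, Subgroup.coe_one] using this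

theorem exists_sat (hG : IsPGroup 2 G) : ∃ F : FusionSystem (⊤ : Subgroup G),
    F.IsSaturated 2 ∧ F ≠ innerFusionSystem ⊤ := by
  refine exists_sat_of_aut (hG.to_subgroup ⊤) le_top (Del x f C E) (h.sylowIn hG)
    (fun δ hδ hn a _ ha h1 => h.ti hδ hn ha h1) (fun h' => ?_) (z := z)
    (fun s _ => by rw [h.zc, mul_inv_cancel_right]) (fun _ δ hδ => h.Del_fix hδ h.zC)
    fun Q hQ hc α hα ho => h.sub_aut hG hQ hc α hα ho
  obtain ⟨β, h1, h2, h3⟩ := h.exists_swap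
  have h4 := (h.mem_aut_iff.1 (h' (h.mem_Del h3 (h1 ▸ f_W) (h2 ▸ x_W)))).2
  rw [h2] at h4
  exact h.not_R_x_f h4

end Frame

end Cfsg.Agent.H9.Bic
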