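import Cfsg.Agent.Lib.H9.BicB
import Cfsg.Agent.Lib.H1.Frattini
import Cfsg.Prelude.Def_OddOrderLocal

/-!
# Nonmetacyclic bicyclic 2-groups with cyclic derived subgroup
-/

set_option autoImplicit false
set_option linter.unusedSectionVars false
set_option linter.style.haveILetI false

namespace Cfsg.Agent.H9.Bic

open Subgroup
open scoped commutatorElement

variable {G : Type*} [Group G]

theorem meta_of_gen {h a : G} (hA : commutator G ≤ zpowers h) (hg : closure {h, a} = ⊤) :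
    IsMetacyclic G := by
  haveI : (zpowers h).Normal := Normal.of_commutator_le _ hA
  refine ⟨zpowers h, inferInstance, inferInstance,
    isCyclic_iff_exists_zpowers_eq_top.2 ⟨(a : G ⧸ zpowers h), eq_top_iff.2 fun q _ => ?_⟩⟩
  obtain ⟨g, rfl⟩ := QuotientGroup.mk_surjective q
  have : closure {h, a} ≤ (zpowers (a : G ⧸ zpowers h)).comap (QuotientGroup.mk' _) := by
    rw [closure_le]
    rintro _ (rfl | rfl)
    · simp only [SetLike.mem_coe, mem_comap, QuotientGroup.mk'_apply]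
      rw [(QuotientGroup.eq_one_iff _).2 (mem_zpowers _)]; exact one_mem _
    · exact mem_zpowers _
  exact this (hg ▸ mem_top g)

theorem mem_zpowers_odd (hG : IsPGroup 2 G) (g : G) {k : ℤ} (hk : Odd k) :
    g ∈ zpowers (g ^ k) := by
  obtain ⟨n, hn⟩ := IsPGroup.iff_orderOf.1 hG g
  rw [mem_zpowers_zpow_iff, hn, ← Int.isCoprime_iff_gcd_eq_one]
  push_cast
  obtain ⟨m, rfl⟩ := hk
  exact IsCoprime.pow_right ⟨1, -m, by ring⟩

theorem eq_one_of_odd (hG : IsPGroup 2 G) {g : G} {k : ℤ} (hk : Odd k) (h : g ^ k = 1) : g = 1 := by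
  simpa [h] using mem_zpowers_odd hG g hk

theorem conj_zpow' (g v : G) (i : ℤ) : g * v ^ i * g⁻¹ = (g * v * g⁻¹) ^ i := conj_zpow.symm

theorem exists_conj_eq {v : G} (hA : commutator G = zpowers v) (g : G) :
    ∃ k : ℤ, g * v * g⁻¹ = v ^ k := by
  have : g * v * g⁻¹ ∈ zpowers v := by
    rw [← hA]; exact Normal.conj_mem inferInstance _ (hA ▸ mem_zpowers v) g
  obtain ⟨k, hk⟩ := this
  exact ⟨k, hk.symm⟩

theorem normal_zpowers {v u : G} (hA : commutator G = zpowers v) (hu : u ∈ zpowers v) :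
    (zpowers u).Normal := by
  obtain ⟨i, rfl⟩ := hu
  refine ⟨?_⟩
  rintro _ ⟨j, rfl⟩ g
  obtain ⟨k, hk⟩ := exists_conj_eq hA g
  refine ⟨j * k, ?_⟩
  simp only [← zpow_mul]
  rw [conj_zpow', hk, ← zpow_mul]; congr 1; ring

theorem not_eq_even (hG : IsPGroup 2 G) {v : G} (hv : v ≠ 1) {k m : ℤ} (hk : Odd k) :
    v ^ k ≠ v ^ (2 * m) := fun h => hv (eq_one_of_odd hG (k := k - 2 * m)
      (hk.sub_even (even_two_mul m)) (by rw [zpow_sub, h, mul_inv_cancel]))

theorem exists_conj_odd (hG : IsPGroup 2 G) {v : G} (hv : v ≠ 1) (hA : commutator G = zpowers v)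
    (g : G) : ∃ k : ℤ, g * v * g⁻¹ = v ^ (2 * k + 1) := by
  obtain ⟨k, hk⟩ := exists_conj_eq hA g
  rcases Int.even_or_odd' k with ⟨m, rfl | rfl⟩
  · exfalso
    obtain ⟨l, hl⟩ := exists_conj_eq hA g⁻¹
    refine not_eq_even hG hv odd_one (m := l * m) ?_
    rw [zpow_one, show 2 * (l * m) = l * (2 * m) by ring, zpow_mul, ← hl, ← conj_zpow', ← hk]
    group
  · exact ⟨m, hk⟩

theorem commutator_eq {v a x : G} (hA : commutator G = zpowers v) (hg : closure {a, x} = ⊤) :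
    commutator G = zpowers ⁅a, x⁆ := by
  have hm : ⁅a, x⁆ ∈ commutator G := commutator_mem_commutator (mem_top a) (mem_top x)
  haveI := normal_zpowers hA (hA ▸ hm)
  refine le_antisymm ?_ (zpowers_le.2 hm)
  let π := QuotientGroup.mk' (zpowers ⁅a, x⁆)
  have h1 : π a * π x = π x * π a := by
    rw [← commutatorElement_eq_one_iff_mul_comm, ← map_commutatorElement]
    exact (QuotientGroup.eq_one_iff _).2 (mem_zpowers _)
  have h2 : ∀ y, π y * π a = π a * π y → π y * π x = π x * π y → ∀ g, π g * π y = π y * π g := by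
    intro y ha hx g
    have : closure {a, x} ≤ (centralizer {π y}).comap π := by
      rw [closure_le]
      rintro _ (rfl | rfl)
      · exact mem_centralizer_singleton_iff.2 ha.symm
      · exact mem_centralizer_singleton_iff.2 hx.symm
    exact mem_centralizer_singleton_iff.1 (this (hg ▸ mem_top g))
  rw [commutator_def, commutator_le]
  intro g _ g' _
  rw [← QuotientGroup.eq_one_iff, ← QuotientGroup.mk'_apply, map_commutatorElement,
    commutatorElement_eq_one_iff_mul_comm]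
  exact h2 g' (h2 a rfl h1 g') (h2 x h1.symm rfl g') g

theorem uniq_inv {v u u' : G} (hu : u ∈ zpowers v) (hu' : u' ∈ zpowers v) (h : u * u = 1)
    (h' : u' * u' = 1) (h1 : u' ≠ 1) : u = 1 ∨ u = u' := by
  obtain ⟨i, rfl⟩ := hu
  obtain ⟨j, rfl⟩ := hu'
  simp only at *
  rw [← zpow_add, ← orderOf_dvd_iff_zpow_eq_one] at h h'
  obtain ⟨s, hs⟩ := h
  obtain ⟨s', hs'⟩ := h'
  rcases Int.even_or_odd' s with ⟨r, rfl | rfl⟩
  · exact Or.inl (orderOf_dvd_iff_zpow_eq_one.1 ⟨r, by linarith⟩)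
  rcases Int.even_or_odd' s' with ⟨r', rfl | rfl⟩
  · exact (h1 (orderOf_dvd_iff_zpow_eq_one.1 ⟨r', by linarith⟩)).elim
  right
  rw [← mul_inv_eq_one, ← zpow_sub]
  exact orderOf_dvd_iff_zpow_eq_one.1 ⟨r - r', by linarith⟩

/-- In a group of class two with commutators of order two. -/
theorem pow_two_pow {T : Type*} [Group T] {c : T} (hc : ∀ g, g * c = c * g) (hcc : c * c = 1)
    (h : ∀ g g' : T, ⁅g, g'⁆ = 1 ∨ ⁅g, g'⁆ = c) (g g' : T) :
    ((g * g') ^ 2 = g ^ 2 * g' ^ 2 ∨ (g * g') ^ 2 = c * (g ^ 2 * g' ^ 2)) ∧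
      ∀ s : ℕ, (g * g') ^ 2 ^ (s + 2) = g ^ 2 ^ (s + 2) * g' ^ 2 ^ (s + 2) := by
  have h0 : ∀ g g' : T, g * g' = g' * g ∨ g * g' = c * (g' * g) := fun g g' => by
    rcases h g g' with e | e
    · exact Or.inl (commutatorElement_eq_one_iff_mul_comm.1 e)
    · right; rw [← e, commutatorElement_def]; group
  have h1 : (g * g') ^ 2 = g ^ 2 * g' ^ 2 ∨ (g * g') ^ 2 = c * (g ^ 2 * g' ^ 2) := by
    have : (g * g') ^ 2 = g * (g' * g) * g' := by rw [pow_two]; group
    rcases h0 g' g with e | e <;> rw [this, e]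
    · left; simp only [pow_two, mul_assoc]
    · right; rw [← mul_assoc g c, hc]; simp only [pow_two, mul_assoc]
  have h2 : ∀ y : T, Commute (g ^ 2) y := fun y => by
    rw [Commute, SemiconjBy, pow_two, mul_assoc]
    rcases h0 g y with e | e
    · rw [e, ← mul_assoc, e, mul_assoc]
    · rw [e, ← mul_assoc, hc, mul_assoc, ← mul_assoc g, e, ← mul_assoc, ← mul_assoc, hcc, one_mul,
        mul_assoc]
  refine ⟨h1, fun s => ?_⟩
  have h3 : (g * g') ^ 4 = g ^ 4 * g' ^ 4 := by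
    have e : (g ^ 2 * g' ^ 2) ^ 2 = g ^ 4 * g' ^ 4 := by
      rw [(h2 _).mul_pow, ← pow_mul, ← pow_mul]
    rw [show 4 = 2 * 2 from rfl, pow_mul (g * g')]
    rcases h1 with e' | e' <;> rw [e']
    · exact e
    · rw [(Commute.symm (hc _)).mul_pow, pow_two c, hcc, one_mul]; exact e
  have h4 : Commute (g ^ 4) (g' ^ 4) := by
    rw [show 4 = 2 * 2 from rfl, pow_mul g]; exact (h2 _).pow_left 2
  rw [show 2 ^ (s + 2) = 4 * 2 ^ s by ring, pow_mul, h3, h4.mul_pow, ← pow_mul, ← pow_mul]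

theorem exists_two_pow {i j : ℤ} (h : ¬ (i = 0 ∧ j = 0)) :
    ∃ (s : ℕ) (i' j' : ℤ), i = i' * 2 ^ s ∧ j = j' * 2 ^ s ∧ (Odd i' ∨ Odd j') := by
  obtain ⟨g, i0, j0, hg, h1, rfl, rfl⟩ := Int.exists_gcd_one' (Int.gcd_pos_iff.2 (not_and_or.1 h))
  obtain ⟨s, m, hm, rfl⟩ := Nat.exists_eq_two_pow_mul_odd hg.ne'
  refine ⟨s, i0 * m, j0 * m, by push_cast; ring, by push_cast; ring, ?_⟩
  have hm' : Odd (m : ℤ) := by exact_mod_cast hm
  by_contra hc
  rw [not_or, Int.not_odd_iff_even, Int.not_odd_iff_even, Int.even_mul, Int.even_mul] at hc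
  have := Int.not_even_iff_odd.2 hm'
  have h2 : (2 : ℤ) ∣ Int.gcd i0 j0 := Int.dvd_coe_gcd (even_iff_two_dvd.1 (hc.1.resolve_right this))
    (even_iff_two_dvd.1 (hc.2.resolve_right this))
  rw [h1] at h2
  norm_num at h2

theorem exists_pair (hG : IsPGroup 2 G) {x y : G} (hb : ∀ g, ∃ i j : ℤ, g = x ^ i * y ^ j)
    (hm : ¬ IsMetacyclic G) {v : G} (hA : commutator G = zpowers v) :
    ∃ a x : G, closure {a, x} = ⊤ ∧ ∃ m : ℤ, x * x = v ^ (2 * m) := by
  have hxy : closure {x, y} = ⊤ := eq_top_iff.2 fun g _ => by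
    obtain ⟨i, j, rfl⟩ := hb g
    exact mul_mem (zpow_mem (subset_closure (by simp)) _) (zpow_mem (subset_closure (by simp)) _)
  have hv : v ≠ 1 := by
    rintro rfl
    exact hm (meta_of_gen (by rw [hA]; simp) hxy)
  haveI := normal_zpowers hA (zpow_mem (mem_zpowers v) 2)
  let π := QuotientGroup.mk' (zpowers (v ^ (2 : ℤ)))
  have hπ : ∀ g, π g = 1 ↔ ∃ m : ℤ, g = v ^ (2 * m) := fun g => by
    rw [QuotientGroup.mk'_apply, QuotientGroup.eq_one_iff]
    exact ⟨fun ⟨m, hm⟩ => ⟨m, by rw [← hm, zpow_mul]⟩, fun ⟨m, hm⟩ => ⟨m, by rw [hm, zpow_mul]⟩⟩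
  have hodd : ∀ m : ℤ, π (v ^ (2 * m + 1)) = π v := fun m => by
    rw [zpow_add_one, map_mul, (hπ _).2 ⟨m, rfl⟩, one_mul]
  have hc : ∀ g, g * π v = π v * g := fun g => by
    obtain ⟨g, rfl⟩ : ∃ g', π g' = g := QuotientGroup.mk'_surjective _ g
    obtain ⟨k, hk⟩ := exists_conj_odd hG hv hA g
    rw [← map_mul, ← mul_inv_eq_iff_eq_mul, ← map_inv, ← map_mul, hk, hodd]
  have hcc : π v * π v = 1 := by rw [← map_mul, hπ]; exact ⟨1, by rw [mul_one, zpow_two]⟩
  have hcomm : ∀ g g' : G ⧸ zpowers (v ^ (2 : ℤ)), ⁅g, g'⁆ = 1 ∨ ⁅g, g'⁆ = π v := fun g g' => by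
    obtain ⟨g, rfl⟩ : ∃ g', π g' = g := QuotientGroup.mk'_surjective _ g
    obtain ⟨g', rfl⟩ : ∃ g, π g = g' := QuotientGroup.mk'_surjective _ g'
    obtain ⟨i, hi⟩ : ⁅g, g'⁆ ∈ zpowers v := hA ▸ commutator_mem_commutator (mem_top g) (mem_top g')
    rw [← map_commutatorElement, ← hi]
    rcases Int.even_or_odd' i with ⟨m, rfl | rfl⟩
    · exact Or.inl ((hπ _).2 ⟨m, rfl⟩)
    · exact Or.inr (hodd m)
  obtain ⟨i, j, hij⟩ := hb v
  obtain ⟨s, i', j', rfl, rfl, hodd'⟩ := exists_two_pow (i := i) (j := j) (by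
    rintro ⟨rfl, rfl⟩; exact hv (by simpa using hij))
  obtain ⟨a, ha⟩ : ∃ a, closure {a, x ^ i' * y ^ j'} = ⊤ := by
    rcases hodd' with h | h
    · refine ⟨y, eq_top_iff.2 (hxy ▸ (closure_le _).2 ?_)⟩
      have hy : y ∈ closure {y, x ^ i' * y ^ j'} := subset_closure (by simp)
      rintro _ (rfl | rfl)
      · exact zpowers_le.2 ((mul_mem_cancel_right (zpow_mem hy j')).1 (subset_closure (by simp)))
          (mem_zpowers_odd hG _ h)
      · exact hy
    · refine ⟨x, eq_top_iff.2 (hxy ▸ (closure_le _).2 ?_)⟩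
      have hx : x ∈ closure {x, x ^ i' * y ^ j'} := subset_closure (by simp)
      rintro _ (rfl | rfl)
      · exact hx
      · exact zpowers_le.2 ((mul_mem_cancel_left (zpow_mem hx i')).1 (subset_closure (by simp)))
          (mem_zpowers_odd hG _ h)
  have hno : ∀ n : ℕ, π (x ^ i' * y ^ j') ^ n ≠ π v := fun n e => by
    obtain ⟨m, hm'⟩ := (hπ ((x ^ i' * y ^ j') ^ n * v⁻¹)).1 (by
      rw [map_mul, map_pow, e, map_inv, mul_inv_cancel])
    refine hm (meta_of_gen (a := a) ?_ (by rwa [Set.pair_comm]))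
    rw [hA, zpowers_le]
    refine zpowers_le.2 ?_ (mem_zpowers_odd hG v (odd_two_mul_add_one m))
    rw [zpow_add_one, ← hm', inv_mul_cancel_right]
    exact pow_mem (mem_zpowers _) n
  have hv' : π v = π (x ^ i') ^ 2 ^ s * π (y ^ j') ^ 2 ^ s := by
    rw [← map_pow, ← map_pow, ← map_mul, ← zpow_natCast, ← zpow_natCast, ← zpow_mul, ← zpow_mul]
    push_cast
    rw [← hij]
  obtain ⟨h1, h2⟩ := pow_two_pow hc hcc hcomm (π (x ^ i')) (π (y ^ j'))
  rcases s with _ | _ | s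
  · exact (hno 1 (by rw [hv', map_mul]; simp)).elim
  · rw [zero_add, pow_one] at hv'
    rw [← hv', ← map_mul] at h1
    rcases h1 with e | e
    · exact (hno 2 e).elim
    · exact ⟨a, _, ha, (hπ _).1 (by rw [map_mul, ← pow_two, e, hcc])⟩
  · exact (hno (2 ^ (s + 2)) (by rw [hv', map_mul, h2])).elim

/-- Generators `a, x` with `x` inverting the cyclic derived group `⟨v⟩`. -/
structure Pr (a x v : G) (k m : ℤ) : Prop where
  pg : IsPGroup 2 G
  gen : closure {a, x} = ⊤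
  comm : commutator G = zpowers v
  ne : v ≠ 1
  ax : a * x * a⁻¹ = v * x
  av : a * v * a⁻¹ = v ^ (2 * k + 1)
  xv : x * v * x⁻¹ = v⁻¹
  sq : x * x = v ^ (2 * m)
  sq2 : x * x * (x * x) = 1

theorem exists_pr (hG : IsPGroup 2 G) (hm : ¬ IsMetacyclic G) {v₀ a x : G}
    (hA : commutator G = zpowers v₀) (hg : closure {a, x} = ⊤) {m₀ : ℤ}
    (hx : x * x = v₀ ^ (2 * m₀)) : ∃ v k m, Pr a x v k m := by
  have hA' := commutator_eq hA hg
  set v := ⁅a, x⁆ with hvd
  have hv : v ≠ 1 := fun h => hm (meta_of_gen (by rw [hA', h]; simp) hg)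
  obtain ⟨i, hi⟩ : v₀ ∈ zpowers v := hA' ▸ hA ▸ mem_zpowers v₀
  simp only at hi
  have hsq : x * x = v ^ (2 * (i * m₀)) := by
    rw [hx, ← hi, ← zpow_mul]; congr 1; ring
  set m := i * m₀
  obtain ⟨k, hk⟩ := exists_conj_odd hG hv hA' a
  obtain ⟨r, hr⟩ := exists_conj_eq hA' x
  have hax : a * x * a⁻¹ = v * x := by rw [hvd, commutatorElement_def]; group
  have e1 : v ^ (2 * m * (2 * k + 1)) = v ^ (1 + r + 2 * m) := by
    rw [mul_comm (2 * m), zpow_mul, ← hk, ← conj_zpow', ← hsq, zpow_add, zpow_add, ← hr, ← hsq,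
      show a * (x * x) * a⁻¹ = a * x * a⁻¹ * (a * x * a⁻¹) by group, hax]
    group
  have e2 : v ^ (r * (2 * m)) = v ^ (2 * m) := by
    rw [zpow_mul, ← hr, ← conj_zpow', ← hsq]; group
  have e3 : v ^ r = v ^ (4 * m * k - 1) := by
    rw [← mul_inv_eq_one, ← zpow_sub, ← inv_eq_one, ← zpow_neg,
      show -(r - (4 * m * k - 1)) = 2 * m * (2 * k + 1) - (1 + r + 2 * m) by ring, zpow_sub, e1,
      mul_inv_cancel]
  have e4 : v ^ (4 * m) = 1 := by
    refine eq_one_of_odd hG (k := 2 * (m * k - 1) + 1) (odd_two_mul_add_one _) ?_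
    rw [zpow_mul v r, e3, ← zpow_mul] at e2
    rw [← zpow_mul, show 4 * m * (2 * (m * k - 1) + 1) = (4 * m * k - 1) * (2 * m) - 2 * m by ring,
      zpow_sub, e2, mul_inv_cancel]
  refine ⟨v, k, m, hG, hg, hA', hv, hax, hk, ?_, hsq, ?_⟩
  · rw [hr, e3, zpow_sub, zpow_mul, e4, one_zpow, one_mul, zpow_one]
  · rw [hsq, ← zpow_add, ← e4]; congr 1; ring

namespace Pr

variable {a x v : G} {k m : ℤ} (h : Pr a x v k m)
include h

theorem central {u : G} (hu : u ∈ zpowers v) (h2 : u * u = 1) (g : G) : g * u = u * g := by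
  by_cases h1 : u = 1
  · simp [h1]
  have h3 : g * u * g⁻¹ ∈ zpowers v := by
    rw [← h.comm] at hu ⊢; exact Normal.conj_mem inferInstance _ hu g
  have h4 : g * u * g⁻¹ * (g * u * g⁻¹) = 1 := by
    rw [show g * u * g⁻¹ * (g * u * g⁻¹) = g * (u * u) * g⁻¹ by group, h2]; group
  rcases uniq_inv h3 hu h4 h2 h1 with e | e
  · exact (h1 (by simpa using e)).elim
  · exact mul_inv_eq_iff_eq_mul.1 e

theorem z_mem : x * x ∈ zpowers v := h.sq ▸ zpow_mem_zpowers v _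

theorem zc (g : G) : g * (x * x) = x * x * g := h.central h.z_mem h.sq2 g

theorem x_conj {u : G} (hu : u ∈ zpowers v) : x * u * x⁻¹ = u⁻¹ := by
  obtain ⟨i, rfl⟩ := hu
  simp only
  rw [conj_zpow', h.xv, inv_zpow]

theorem conj_x {u : G} (hu : u ∈ zpowers v) : u * x * u⁻¹ = u * u * x := by
  have := h.x_conj (inv_mem hu)
  rw [inv_inv, mul_inv_eq_iff_eq_mul] at this
  rw [mul_assoc, this, mul_assoc]

theorem a_conj (i : ℤ) : a * v ^ i * a⁻¹ = v ^ ((2 * k + 1) * i) := by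
  rw [conj_zpow', h.av, zpow_mul]

/-- The element `c = v^{-(k+1)} a²`. -/
def c (_ : Pr a x v k m) : G := v ^ (-(k + 1)) * (a * a)

theorem c_x : h.c * x = x * h.c := by
  rw [← mul_inv_eq_iff_eq_mul]
  have e : a * a * x * (a * a)⁻¹ = v ^ (k + 1) * x * (v ^ (k + 1))⁻¹ := by
    rw [h.conj_x (zpow_mem_zpowers v _), ← zpow_add,
      show a * a * x * (a * a)⁻¹ = a * (a * x * a⁻¹) * a⁻¹ by group, h.ax,
      show a * (v * x) * a⁻¹ = a * v * a⁻¹ * (a * x * a⁻¹) by group, h.av, h.ax, ← mul_assoc,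
      ← zpow_add_one]
    congr 2; ring
  rw [c, show v ^ (-(k + 1)) * (a * a) * x * (v ^ (-(k + 1)) * (a * a))⁻¹ =
    v ^ (-(k + 1)) * (a * a * x * (a * a)⁻¹) * (v ^ (-(k + 1)))⁻¹ by group, e]
  group

theorem c_u {u : G} (hu : u ∈ zpowers v) (h8 : u ^ (8 : ℤ) = 1) : h.c * u = u * h.c := by
  obtain ⟨i, rfl⟩ := hu
  simp only at h8 ⊢
  rw [← mul_inv_eq_iff_eq_mul]
  obtain ⟨n, hn⟩ := Int.even_mul_succ_self k
  have e : a * a * v ^ i * (a * a)⁻¹ = v ^ i := by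
    rw [show a * a * v ^ i * (a * a)⁻¹ = a * (a * v ^ i * a⁻¹) * a⁻¹ by group, h.a_conj, h.a_conj,
      show (2 * k + 1) * ((2 * k + 1) * i) = i + i * 8 * n by linear_combination 4 * i * hn,
      zpow_add, zpow_mul, zpow_mul, h8, one_zpow, mul_one]
  rw [c, show v ^ (-(k + 1)) * (a * a) * v ^ i * (v ^ (-(k + 1)) * (a * a))⁻¹ =
    v ^ (-(k + 1)) * (a * a * v ^ i * (a * a)⁻¹) * (v ^ (-(k + 1)))⁻¹ by group, e]
  group

theorem c_a (h4 : v ^ (4 : ℤ) = 1) : h.c * a = a * h.c := by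
  obtain ⟨n, hn⟩ := Int.even_mul_succ_self k
  have e : a * v ^ (-(k + 1)) * a⁻¹ = v ^ (-(k + 1)) := by
    rw [h.a_conj, show (2 * k + 1) * -(k + 1) = -(k + 1) + 4 * (-n) by linear_combination -2 * hn,
      zpow_add, zpow_mul, h4, one_zpow, mul_one]
  rw [c, ← mul_assoc a, mul_inv_eq_iff_eq_mul.1 e]; simp only [mul_assoc]

/-- Normal form. -/
theorem normal_form (g : G) : ∃ j : ℤ, ∃ u ∈ zpowers v, ∃ b, (b = 1 ∨ b = a) ∧ ∃ y,
    (y = 1 ∨ y = x) ∧ g = h.c ^ j * b * u * y := by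
  haveI : (zpowers v).Normal := h.comm ▸ inferInstance
  let D : Subgroup G := zpowers v ⊔ zpowers x
  haveI : D.Normal := Normal.of_commutator_le _ (h.comm ▸ le_sup_left)
  let π := QuotientGroup.mk' D
  have hπ : ∀ d ∈ D, π d = 1 := fun d hd => (QuotientGroup.eq_one_iff _).2 hd
  have h1 : closure {a, x} ≤ (zpowers (π a)).comap π := by
    rw [closure_le]
    rintro _ (rfl | rfl)
    · exact mem_zpowers _
    · simp only [SetLike.mem_coe, mem_comap]
      rw [hπ _ (mem_sup_right (mem_zpowers _))]; exact one_mem _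
  obtain ⟨n, hn⟩ := h1 (h.gen ▸ mem_top g)
  simp only at hn
  have hc : π h.c = π a ^ (2 : ℤ) := by
    rw [c, map_mul, hπ _ (mem_sup_left (zpow_mem_zpowers v _)), one_mul,
      map_mul, zpow_two]
  obtain ⟨j, b, hb, e⟩ : ∃ (j : ℤ) (b : G), (b = 1 ∨ b = a) ∧ π (h.c ^ j * b) = π g := by
    rcases Int.even_or_odd' n with ⟨j, rfl | rfl⟩
    · exact ⟨j, 1, Or.inl rfl, by rw [mul_one, map_zpow, hc, ← zpow_mul, hn]⟩
    · exact ⟨j, a, Or.inr rfl, by rw [map_mul, map_zpow, hc, ← zpow_mul, ← zpow_add_one, hn]⟩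
  have h2 : (h.c ^ j * b)⁻¹ * g ∈ D := QuotientGroup.eq.1 e
  obtain ⟨u, hu, _, ⟨i, rfl⟩, e'⟩ := (mem_sup_of_normal_left).1 h2
  simp only at e'
  rcases Int.even_or_odd' i with ⟨l, rfl | rfl⟩
  · refine ⟨j, u * x ^ (2 * l), mul_mem hu ?_, b, hb, 1, Or.inl rfl, by rw [e']; group⟩
    rw [zpow_mul, zpow_two]; exact zpow_mem h.z_mem l
  · refine ⟨j, u * x ^ (2 * l), mul_mem hu ?_, b, hb, x, Or.inr rfl, ?_⟩
    · rw [zpow_mul, zpow_two]; exact zpow_mem h.z_mem l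
    · rw [mul_assoc (h.c ^ j * b), mul_assoc u, ← zpow_add_one, e']; group

theorem stab {g : G} (hg : g * x * g⁻¹ = x ∨ g * x * g⁻¹ = x * x * x) :
    ∃ j : ℤ, ∃ u ∈ zpowers v, (u * u = 1 ∨ u * u = x * x) ∧ ∃ y, (y = 1 ∨ y = x) ∧
      g = h.c ^ j * u * y := by
  obtain ⟨j, u, hu, b, hb, y, hy, rfl⟩ := h.normal_form g
  have hcx : Commute (h.c ^ j) x := Commute.zpow_left h.c_x j
  have hyx : y * x * y⁻¹ = x := by rcases hy with rfl | rfl <;> group
  have h1 : b * (u * u * x) * b⁻¹ = x ∨ b * (u * u * x) * b⁻¹ = x * x * x := by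
    rw [show h.c ^ j * b * u * y * x * (h.c ^ j * b * u * y)⁻¹ =
      h.c ^ j * (b * (u * (y * x * y⁻¹) * u⁻¹) * b⁻¹) * (h.c ^ j)⁻¹ by group, hyx, h.conj_x hu,
      mul_inv_eq_iff_eq_mul, mul_inv_eq_iff_eq_mul, ← hcx.eq,
      ← ((hcx.mul_right hcx).mul_right hcx).eq, mul_right_inj, mul_right_inj] at hg
    exact hg
  rcases hb with rfl | rfl
  · refine ⟨j, u, hu, ?_, y, hy, by rw [mul_one]⟩
    simpa using h1
  · exfalso
    obtain ⟨i, rfl⟩ := hu
    simp only at h1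
    rw [← zpow_add, show b * (v ^ (i + i) * x) * b⁻¹ = b * v ^ (i + i) * b⁻¹ * (b * x * b⁻¹) by group,
      h.a_conj, h.ax, ← mul_assoc, ← zpow_add_one, mul_left_inj, h.sq, mul_eq_right] at h1
    have ho : Odd ((2 * k + 1) * (i + i) + 1) := ⟨(2 * k + 1) * i, by ring⟩
    rcases h1 with e | e
    · exact not_eq_even h.pg h.ne ho (m := 0) (by rw [e]; simp)
    · exact not_eq_even h.pg h.ne ho e

theorem exists_f : ∃ f ∈ zpowers v, f * f = x * x ∧ f ≠ 1 ∧ f ≠ x * x ∧ ∀ u ∈ zpowers v,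
    (u * u = 1 ∨ u * u = x * x) → u = 1 ∨ u = x * x ∨ u = f ∨ u = x * x * f := by
  by_cases hz : x * x = 1
  · obtain ⟨f, hf, h1, h2⟩ : ∃ f ∈ zpowers v, f ≠ 1 ∧ f * f = 1 := by
      obtain ⟨n, hn⟩ := h.pg v
      induction n with
      | zero => exact (h.ne (by simpa using hn)).elim
      | succ n ih =>
        by_cases e : v ^ 2 ^ n = 1
        · exact ih e
        · exact ⟨v ^ 2 ^ n, pow_mem (mem_zpowers v) _, e, by rw [← pow_two, ← pow_mul, ← pow_succ, hn]⟩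
    refine ⟨f, hf, by rw [h2, hz], h1, by rwa [hz], fun u hu h3 => ?_⟩
    rw [hz, or_self] at h3
    rcases uniq_inv hu hf h3 h2 h1 with e | e
    exacts [Or.inl e, Or.inr (Or.inr (Or.inl e))]
  · have hf : v ^ m * v ^ m = x * x := by rw [h.sq, ← zpow_add, two_mul]
    refine ⟨v ^ m, zpow_mem_zpowers v m, hf, fun e => hz (by rw [← hf, e, mul_one]),
      fun e => hz (by rw [← hf, e, h.sq2]), fun u hu h3 => ?_⟩
    rcases h3 with h3 | h3
    · rcases uniq_inv hu h.z_mem h3 h.sq2 hz with e | e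
      exacts [Or.inl e, Or.inr (Or.inl e)]
    · have hc : Commute u (v ^ m) := by
        obtain ⟨i, rfl⟩ := hu
        exact Commute.zpow_zpow_self v i m
      rcases uniq_inv (mul_mem hu (inv_mem (zpow_mem_zpowers v m))) h.z_mem (by
        rw [mul_assoc, ← mul_assoc (v ^ m)⁻¹, ← hc.inv_right.eq, mul_assoc, ← mul_assoc, h3, ← hf]
        group) h.sq2 hz with e | e
      · exact Or.inr (Or.inr (Or.inl (mul_inv_eq_one.1 e)))
      · exact Or.inr (Or.inr (Or.inr (mul_inv_eq_iff_eq_mul.1 e)))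

theorem fx {f : G} (hf : f ∈ zpowers v) (hff : f * f = x * x) : f * x = x * x * (x * f) := by
  have e := mul_inv_eq_iff_eq_mul.1 (h.x_conj hf)
  rw [e, ← hff]; group

theorem exists_t {f : G} (hf : f ∈ zpowers v) (hff : f * f = x * x)
    (hu : ∀ u ∈ zpowers v, (u * u = 1 ∨ u * u = x * x) →
      u = 1 ∨ u = x * x ∨ u = f ∨ u = x * x * f) :
    ∃ t, h.c * t = t * h.c ∧ (t * f * t⁻¹ = f ∨ t * f * t⁻¹ = x * x * f) ∧
      (t * x * t⁻¹ = x * f ∨ t * x * t⁻¹ = x * x * (x * f)) := by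
  have hfx := h.fx hf hff
  obtain ⟨i, rfl⟩ := hf
  simp only at *
  rcases Int.even_or_odd' i with ⟨l, rfl | rfl⟩
  · refine ⟨v ^ l, h.c_u (zpow_mem_zpowers v l) ?_, Or.inl (by group), Or.inr ?_⟩
    · rw [← h.sq2, ← hff]; group
    · rw [h.conj_x (zpow_mem_zpowers v l), ← hfx, ← zpow_add, two_mul]
  · obtain ⟨n, hn⟩ := mem_zpowers_odd h.pg v (odd_two_mul_add_one l)
    simp only at hn
    set f := v ^ (2 * l + 1) with hfd
    have hz : ∀ n : ℤ, (x * x) ^ n = 1 ∨ (x * x) ^ n = x * x := fun n => by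
      rcases Int.even_or_odd' n with ⟨r, rfl | rfl⟩
      · left; rw [zpow_mul, zpow_two, h.sq2, one_zpow]
      · right; rw [zpow_add_one, zpow_mul, zpow_two, h.sq2, one_zpow, one_mul]
    have hvv : v * v = (x * x) ^ n := by
      rw [← hff, (Commute.refl f).mul_zpow, hn]
    refine ⟨a, h.c_a ?_, ?_, ?_⟩
    · rw [show (4 : ℤ) = 2 * 2 from rfl, zpow_mul, zpow_two v, hvv, ← zpow_mul, mul_comm n,
        zpow_mul, zpow_two, h.sq2, one_zpow]
    · have : a * f * a⁻¹ = (x * x) ^ k * f := by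
        rw [hfd, h.a_conj, mul_comm (2 * k + 1), zpow_mul, ← hfd, zpow_add_one, zpow_mul, zpow_two,
          hff]
      rw [this]
      rcases hz k with e | e <;> rw [e]
      exacts [Or.inl (one_mul f), Or.inr rfl]
    · rw [h.ax]
      rcases hu v (mem_zpowers v) (hvv ▸ hz n) with e | e | e | e
      · exact (h.ne e).elim
      · exact (not_eq_even h.pg h.ne odd_one (m := m) (by rw [zpow_one, ← h.sq, ← e])).elim
      · right; rw [← hfx, ← e]
      · left; rw [e, mul_assoc, hfx, ← mul_assoc, h.sq2, one_mul]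

theorem frame {f : G} (hf : f ∈ zpowers v) (hff : f * f = x * x) (h1 : f ≠ 1) (h2 : f ≠ x * x)
    (hu : ∀ u ∈ zpowers v, (u * u = 1 ∨ u * u = x * x) →
      u = 1 ∨ u = x * x ∨ u = f ∨ u = x * x * f)
    {c : G} (hc : c ∈ zpowers h.c) (hc' : h.c = c ∨ h.c = c * f)
    (hfc : x * x = 1 → f ∉ zpowers c) : ∃ t C E, Frame x f t (x * x) C E := by
  obtain ⟨t, ht, htf, htx⟩ := h.exists_t hf hff hu
  have hfx := h.fx hf hff
  have hzc := h.zc
  have hzz := h.sq2
  have hcf : h.c * f = f * h.c := h.c_u hf (by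
    rw [show (8 : ℤ) = 2 * (2 * 2) from rfl, zpow_mul, zpow_two f, hff, zpow_mul, zpow_two (x * x),
      h.sq2, one_zpow])
  have hcom : ∀ y, h.c * y = y * h.c → ∀ i : ℤ, c ^ i * y = y * c ^ i := fun y hy i => by
    obtain ⟨j, rfl⟩ := hc
    exact (Commute.zpow_left (Commute.zpow_left hy j) i).eq
  have hstab := fun g => h.stab (g := g)
  have hcx := h.c_x
  have hconj := fun u => h.conj_x (u := u)
  generalize hz : x * x = z at *
  have zz' : ∀ g, z * (z * g) = g := fun g => by rw [← mul_assoc, hzz, one_mul]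
  have zl : ∀ g y, g * (z * y) = z * (g * y) := fun g y => by rw [← mul_assoc, hzc, mul_assoc]
  have zi : z⁻¹ = z := by rw [inv_eq_iff_mul_eq_one, hzz]
  let C : Subgroup G :=
    { carrier := {d | ∃ i : ℤ, d = c ^ i ∨ d = z * c ^ i}
      mul_mem' := by
        rintro _ _ ⟨i, rfl | rfl⟩ ⟨j, rfl | rfl⟩ <;> refine ⟨i + j, ?_⟩ <;> rw [zpow_add]
        · exact Or.inl rfl
        · exact Or.inr (zl _ _)
        · exact Or.inr (mul_assoc _ _ _)
        · left; rw [mul_assoc, zl (c ^ i), zz']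
      one_mem' := ⟨0, Or.inl (zpow_zero c).symm⟩
      inv_mem' := by
        rintro _ ⟨i, rfl | rfl⟩ <;> refine ⟨-i, ?_⟩ <;> rw [zpow_neg]
        · exact Or.inl rfl
        · right; rw [mul_inv_rev, zi, hzc] }
  let E : Subgroup G :=
    { carrier := {g | g * x * g⁻¹ = x ∨ g * x * g⁻¹ = z * x}
      mul_mem' := by
        intro g g' hg hg'
        simp only [Set.mem_ofPred_eq] at *
        rw [show g * g' * x * (g * g')⁻¹ = g * (g' * x * g'⁻¹) * g⁻¹ by group]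
        rcases hg' with e | e <;> rw [e]
        · exact hg
        · rw [zl, mul_assoc z]
          rcases hg with e | e <;> rw [e]
          exacts [Or.inr rfl, Or.inl (zz' x)]
      one_mem' := Or.inl (by group)
      inv_mem' := by
        intro g hg
        simp only [Set.mem_ofPred_eq] at *
        rcases hg with e | e
        · left; conv_lhs => rw [← e]
          group
        · right; conv_lhs => rw [← zz' x, ← e]
          rw [zl]; group }
  have hCc : ∀ y, h.c * y = y * h.c → ∀ d ∈ C, d * y = y * d := by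
    rintro y hy _ ⟨i, rfl | rfl⟩
    · exact hcom y hy i
    · rw [mul_assoc, hcom y hy i, zl]
  have hCE : ∀ d ∈ C, d ∈ E := fun d hd => Or.inl (by rw [hCc x hcx d hd]; group)
  have hxE : x ∈ E := Or.inl (by group)
  have hfE : f ∈ E := Or.inr (by rw [hconj f hf, hff])
  have hzC : z ∈ C := ⟨0, Or.inr (by simp)⟩
  have hxC : x ∉ C := fun hx => by
    have e : t * x * t⁻¹ = x := by rw [← hCc t ht x hx]; group
    rw [e, ← zl, left_eq_mul, left_eq_mul] at htx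
    rcases htx with e | e
    · exact h1 e
    · exact h2 (by rw [← zi]; exact eq_inv_of_mul_eq_one_right e)
  have hfC : f ∉ C := fun hf' => by
    have e := hCc x hcx f hf'
    rw [hfx, mul_eq_right] at e
    obtain ⟨i, e' | e'⟩ := hf'
    · exact hfc e ⟨i, e'.symm⟩
    · exact hfc e ⟨i, by rw [e', e, one_mul]⟩
  refine ⟨t, C, E, hz, hff, hfx, hzz, hzc, hzC, hCc x hcx, hCc f hcf, hCc t ht, ?_, hxC, hfC, ?_,
    fun g => ⟨fun hg => ?_, ?_⟩, fun n hn => ?_, htf, htx,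
    Or.inr ⟨c, ⟨1, Or.inl (zpow_one c).symm⟩, fun d hd => hd⟩⟩
  · rintro d hd _ ⟨i, rfl | rfl⟩
    · exact (hcom d (hCc h.c rfl d hd).symm i).symm
    · rw [zl, mul_assoc, hcom d (hCc h.c rfl d hd).symm i]
  · intro hxf
    have e : t * x * t⁻¹ * (t * f * t⁻¹) = x * f := by
      rw [show t * x * t⁻¹ * (t * f * t⁻¹) = t * (x * f) * t⁻¹ by group, ← hCc t ht _ hxf]; group
    have e1 : z ≠ f := h2.symm
    have e2 : (1 : G) ≠ f := h1.symm
    rcases htx with e' | e' <;> rcases htf with e'' | e'' <;> rw [e', e''] at e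
    · rw [mul_assoc, hff] at e; exact e1 (mul_left_cancel e)
    · rw [mul_assoc, zl f, hff, hzz] at e; exact e2 (mul_left_cancel e)
    · rw [← zl, mul_assoc, mul_assoc, hff, hzz] at e; exact e2 (mul_left_cancel e)
    · rw [← zl, mul_assoc, mul_assoc, zl f, zz', hff] at e; exact e1 (mul_left_cancel e)
  · obtain ⟨j, u, hu', h3, y, hy, rfl⟩ := hstab g hg
    obtain ⟨d, hd, w, hw, e⟩ : ∃ d ∈ C, ∃ w, (w = 1 ∨ w = f) ∧ h.c ^ j * u = w * d := by
      have h4 : ∃ d ∈ C, ∃ w, (w = 1 ∨ w = f) ∧ h.c ^ j = w * d := by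
        rcases hc' with e | e
        · exact ⟨c ^ j, ⟨j, Or.inl rfl⟩, 1, Or.inl rfl, by rw [e, one_mul]⟩
        · have hcf' : Commute c f := show c * f = f * c by simpa using hcom f hcf 1
          rw [e, hcf'.mul_zpow, hcom _ ((Commute.zpow_right hcf j).eq)]
          rcases Int.even_or_odd' j with ⟨l, e' | e'⟩
          · exact ⟨_, C.mul_mem (C.zpow_mem hzC l) ⟨j, Or.inl rfl⟩, 1, Or.inl rfl, by
              rw [one_mul, ← hff, ← zpow_two, ← zpow_mul, ← e']⟩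
          · exact ⟨_, C.mul_mem (C.zpow_mem hzC l) ⟨j, Or.inl rfl⟩, f, Or.inr rfl, by
              rw [← mul_assoc, ← hff, ← zpow_two, ← zpow_mul, ← zpow_one_add, add_comm 1, ← e']⟩
      obtain ⟨d, hd, w, hw, e⟩ := h4
      rw [e]
      rcases hu u hu' h3 with rfl | rfl | rfl | rfl
      · exact ⟨d, hd, w, hw, mul_one _⟩
      · exact ⟨_, C.mul_mem hd hzC, w, hw, mul_assoc _ _ _⟩
      · rcases hw with rfl | rfl
        · exact ⟨d, hd, u, Or.inr rfl, by rw [one_mul, hCc _ hcf d hd]⟩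
        · exact ⟨_, C.mul_mem hzC hd, 1, Or.inl rfl, by
            rw [mul_assoc, hCc _ hcf d hd, ← mul_assoc, hff, one_mul]⟩
      · rcases hw with rfl | rfl
        · exact ⟨_, C.mul_mem hzC hd, f, Or.inr rfl, by rw [one_mul, zl, zl, hCc _ hcf d hd]⟩
        · exact ⟨d, hd, 1, Or.inl rfl, by
            rw [zl, mul_assoc, hCc _ hcf d hd, ← mul_assoc w, hff, zz', one_mul]⟩
    rw [e]
    rcases hy with rfl | rfl <;> rcases hw with rfl | rfl
    · exact ⟨d, hd, Or.inl (by group)⟩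
    · exact ⟨d, hd, Or.inr (Or.inr (Or.inl (mul_one _)))⟩
    · exact ⟨d, hd, Or.inr (Or.inl (by rw [one_mul, hCc _ hcx d hd]))⟩
    · exact ⟨_, C.mul_mem hzC hd, Or.inr (Or.inr (Or.inr (by
        rw [mul_assoc, hCc _ hcx d hd, ← mul_assoc, hfx, zl, zl]; simp only [mul_assoc])))⟩
  · rintro ⟨d, hd, rfl | rfl | rfl | rfl⟩
    exacts [hCE _ hd, E.mul_mem hxE (hCE _ hd), E.mul_mem hfE (hCE _ hd),
      E.mul_mem hxE (E.mul_mem hfE (hCE _ hd))]
  · have h3 : ⁅n, x⁆ ∈ zpowers v := h.comm ▸ commutator_mem_commutator (mem_top n) (mem_top x)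
    have h4 : n * x * n⁻¹ = ⁅n, x⁆ * x := by rw [commutatorElement_def]; group
    have h5 : ⁅n, x⁆ ∈ E := (E.mul_mem_cancel_right hxE).1
      (h4 ▸ FusionSystem.conj_mem_of_mem_normalizer hn hxE)
    have h6 : ⁅n, x⁆ * ⁅n, x⁆ = 1 ∨ ⁅n, x⁆ * ⁅n, x⁆ = z := by
      rcases h5 with e | e <;> rw [hconj _ h3] at e
      exacts [Or.inl (mul_eq_right.1 e), Or.inr (mul_right_cancel e)]
    have h7 : ∀ y, (y = t * x * t⁻¹ ∨ y = z * (t * x * t⁻¹)) → n * x * n⁻¹ = y → t⁻¹ * n ∈ E := by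
      intro y hy e
      change _ ∨ _
      rw [show t⁻¹ * n * x * (t⁻¹ * n)⁻¹ = t⁻¹ * (n * x * n⁻¹) * t by group, e]
      rcases hy with rfl | rfl
      · left; group
      · right; rw [zl]; group
    rcases hu _ h3 h6 with e | e | e | e <;> rw [e] at h4
    · exact Or.inl (Or.inl (by rw [h4, one_mul]))
    · exact Or.inl (Or.inr h4)
    · refine Or.inr (h7 _ ?_ h4)
      rw [hfx]
      rcases htx with e' | e' <;> rw [e']
      exacts [Or.inr rfl, Or.inl rfl]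
    · refine Or.inr (h7 _ ?_ h4)
      rw [mul_assoc, hfx, zz']
      rcases htx with e' | e' <;> rw [e']
      exacts [Or.inl rfl, Or.inr (zz' _).symm]

end Pr

theorem exists_frame [Finite G] (hG : IsPGroup 2 G)
    (hb : ∃ x y : G, ∀ g, ∃ i j : ℤ, g = x ^ i * y ^ j) (hm : ¬ IsMetacyclic G)
    (hc : IsCyclic (commutator G)) :
    ∃ (x f t z : G) (C E : Subgroup G), Frame x f t z C E := by
  obtain ⟨x₀, y₀, hb⟩ := hb
  obtain ⟨v₀, hA⟩ := (Subgroup.isCyclic_iff_exists_zpowers_eq_top _).1 hc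
  obtain ⟨a, x, hg, m₀, hx⟩ := exists_pair hG hb hm hA.symm
  obtain ⟨v, k, m, h⟩ := exists_pr hG hm hA.symm hg hx
  obtain ⟨f, hf, hff, h1, h2, hu⟩ := h.exists_f
  by_cases hfc : x * x = 1 → f ∉ zpowers h.c
  · obtain ⟨t, C, E, hF⟩ := h.frame hf hff h1 h2 hu (mem_zpowers _) (Or.inl rfl) hfc
    exact ⟨_, _, _, _, _, _, hF⟩
  rw [Classical.not_imp, not_not] at hfc
  obtain ⟨hz, j, hj⟩ := hfc
  simp only at hj
  rcases Int.even_or_odd' j with ⟨l, rfl | rfl⟩
  · have hsq : x * h.c ^ l * (x * h.c ^ l) = f := by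
      rw [mul_assoc, ← mul_assoc (h.c ^ l), (Commute.zpow_left h.c_x l).eq, mul_assoc, ← mul_assoc,
        hz, one_mul, ← zpow_add, ← two_mul, hj]
    have hg' : closure {a, x * h.c ^ l} = ⊤ := by
      refine frattini_nongenerating (eq_top_iff.2 (h.gen ▸ (closure_le _).2 ?_))
      have ha : a ∈ closure {a, x * h.c ^ l} ⊔ frattini G :=
        mem_sup_left (subset_closure (by simp))
      have hv : v ∈ closure {a, x * h.c ^ l} ⊔ frattini G :=
        mem_sup_right (H1.commutator_le_frattini hG (h.comm ▸ mem_zpowers v))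
      rintro _ (rfl | rfl)
      · exact ha
      · have hc : h.c ∈ _ := mul_mem (zpow_mem hv _) (mul_mem ha ha)
        exact (mul_mem_cancel_right (zpow_mem hc l)).1 (mem_sup_left (subset_closure (by simp)))
    obtain ⟨i, hi⟩ := hf
    simp only at hi
    rcases Int.even_or_odd' i with ⟨r, rfl | rfl⟩
    · obtain ⟨v', k', m', h'⟩ := exists_pr hG hm h.comm hg' (hsq.trans hi.symm)
      obtain ⟨f', hf', hff', h1', h2', hu'⟩ := h'.exists_f
      obtain ⟨t, C, E, hF⟩ := h'.frame hf' hff' h1' h2' hu' (mem_zpowers _) (Or.inl rfl)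
        fun e => (h1 (hsq ▸ e)).elim
      exact ⟨_, _, _, _, _, _, hF⟩
    · refine (hm (meta_of_gen (h := x * h.c ^ l) (a := a) ?_ (by rwa [Set.pair_comm]))).elim
      rw [h.comm, zpowers_le]
      refine zpowers_le.2 ?_ (mem_zpowers_odd hG v (odd_two_mul_add_one r))
      rw [hi, ← hsq]
      exact mul_mem (mem_zpowers _) (mem_zpowers _)
  · have h3 : h.c ∈ zpowers f := hj ▸ mem_zpowers_odd hG _ (odd_two_mul_add_one l)
    have h4 : h.c = f := by
      refine (uniq_inv h3 (mem_zpowers f) ?_ (hff.trans hz) h1).resolve_left fun e => h1 ?_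
      · obtain ⟨n, hn⟩ := h3
        rw [← hn, ← (Commute.refl f).mul_zpow, hff, hz, one_zpow]
      · rw [← hj, e, one_zpow]
    obtain ⟨t, C, E, hF⟩ := h.frame hf hff h1 h2 hu (one_mem _) (Or.inr (by rw [one_mul, h4]))
      fun _ e => h1 (by simpa using e)
    exact ⟨_, _, _, _, _, _, hF⟩

theorem exists_nonnilp {Ω : Type*} [Group Ω] {S : Subgroup Ω} [Finite S] (hS : IsPGroup 2 S)
    (hb : ∃ x y : ↥S, ∀ g : ↥S, ∃ i j : ℤ, g = x ^ i * y ^ j) (hm : ¬ Cfsg.IsMetacyclic ↥S)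
    (hc : IsCyclic ↥(commutator ↥S)) :
    ∃ F : Cfsg.FusionSystem S, F.IsSaturated 2 ∧
      ¬ ∀ P : Subgroup Ω, F.Hom P = (Cfsg.innerFusionSystem S).Hom P := by
  obtain ⟨x, f, t, z, C, E, h⟩ := exists_frame hS hb hm hc
  obtain ⟨F, hF, hne⟩ := h.exists_sat hS
  obtain ⟨F', h'⟩ := F.exists_isoVia
    (FusionSystem.GrpIso.of_equiv (Subgroup.topEquiv : (⊤ : Subgroup S) ≃* S))
  exact ⟨F', h'.isSaturated hF, fun e =>
    hne (h'.eq_inner_iff.1 (FusionSystem.forall_hom_eq_iff.1 e))⟩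

end Cfsg.Agent.H9.Bic
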